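import Mathlib.Analysis.Complex.Basic
import Mathlib.Analysis.Complex.Order
import Mathlib.LinearAlgebra.Span.Basic
import Mathlib.Algebra.BigOperators.Pi
import Mathlib.Algebra.Star.Pi
import Mathlib.Tactic.LinearCombination
import Mathlib.Tactic.Linarith

/-!
# An algebra of functions spanned by orthogonal columns

Abstract form of the multiplication of normalised columns of the principal block.
-/

set_option autoImplicit false

open scoped ComplexConjugate ComplexOrder

namespace Cfsg.Lib.GlSz

variable {ι : Type*} [Fintype ι]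

/-- The weighted trace. -/
noncomputable def tr (w : ι → ℝ) : (ι → ℂ) →ₗ[ℂ] ℂ where
  toFun f := ∑ i, (w i : ℂ) * f i
  map_add' f g := by simp [mul_add, Finset.sum_add_distrib]
  map_smul' c f := by simp [Finset.mul_sum, mul_left_comm]

theorem tr_apply (w : ι → ℝ) (f : ι → ℂ) : tr w f = ∑ i, (w i : ℂ) * f i := rfl

theorem tr_star (w : ι → ℝ) (f : ι → ℂ) : tr w (star f) = conj (tr w f) := by
  simp [tr_apply]

theorem eq_zero_of_tr {w : ι → ℝ} (hw : ∀ i, 0 < w i) {f : ι → ℂ} (h : tr w (star f * f) = 0) :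
    f = 0 := by
  have h1 : ∑ i, w i * Complex.normSq (f i) = 0 := by
    have : tr w (star f * f) = ((∑ i, w i * Complex.normSq (f i) : ℝ) : ℂ) := by
      rw [tr_apply]; push_cast
      exact Finset.sum_congr rfl fun i _ => by simp [Complex.normSq_eq_conj_mul_self]
    exact_mod_cast this.symm.trans h
  rw [Finset.sum_eq_zero_iff_of_nonneg fun i _ => mul_nonneg (hw i).le (Complex.normSq_nonneg _)]
    at h1
  funext i
  exact Complex.normSq_eq_zero.1 ((mul_eq_zero.1 (h1 i (Finset.mem_univ i))).resolve_left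
    (hw i).ne')

/-- Orthogonal columns whose products mostly stay in their span. -/
structure Alg (w : ι → ℝ) (o : ι) (T : Finset (ι → ℂ)) (N : ℝ) : Prop where
  w_pos : ∀ i, 0 < w i
  w_o : w o = 1
  star_mem : ∀ f ∈ T, star f ∈ T
  apply_o : ∀ f ∈ T, f o = 1
  lt : ∀ f ∈ T, ∀ i, i ≠ o → ‖f i‖ < 1
  self : ∀ f ∈ T, tr w (f * star f) = N
  orth : ∀ f ∈ T, ∀ g ∈ T, g ≠ star f → tr w (f * g) = 0
  one : ∀ f ∈ T, tr w f = 0
  nonneg : ∀ f ∈ T, ∀ g ∈ T, ∀ h ∈ T, 0 ≤ tr w (f * g * h)
  mul_mem : ∀ f ∈ T, ∀ g ∈ T, g ≠ star f → f * g ∈ Submodule.span ℂ (T : Set (ι → ℂ))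
  pos : 0 < N

/-- Projection to the span of `T`. -/
noncomputable def pr (w : ι → ℝ) (T : Finset (ι → ℂ)) (N : ℝ) (h : ι → ℂ) : ι → ℂ :=
  ∑ u ∈ T, (tr w (h * star u) / N) • u

/-- The remainder of `f * star f`. -/
noncomputable def rem (w : ι → ℝ) (T : Finset (ι → ℂ)) (N : ℝ) (f : ι → ℂ) : ι → ℂ :=
  f * star f - pr w T N (f * star f)

theorem pr_mem (w : ι → ℝ) (T : Finset (ι → ℂ)) (N : ℝ) (h : ι → ℂ) :
    pr w T N h ∈ Submodule.span ℂ (T : Set (ι → ℂ)) :=
  Submodule.sum_mem _ fun _ hu => Submodule.smul_mem _ _ (Submodule.subset_span hu)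

theorem tr_mul_span {w : ι → ℝ} {T : Finset (ι → ℂ)} {g h : ι → ℂ}
    (hg : ∀ v ∈ T, tr w (g * v) = 0) (hh : h ∈ Submodule.span ℂ (T : Set (ι → ℂ))) :
    tr w (g * h) = 0 := by
  induction hh using Submodule.span_induction with
  | mem x hx => exact hg x hx
  | zero => simp
  | add x y _ _ hx hy => rw [mul_add, map_add, hx, hy, add_zero]
  | smul c x _ hx => rw [mul_smul_comm, map_smul, hx, smul_zero]

theorem num_real {s t α β : ℝ} (hs : |s| < 1) (ht : |t| < 1) (hβ : 0 < β)
    (hαβ : α + β = 1) (hα : β ≤ α) (h : s * t = α * s + β * t) : s * s ≤ 3 * -(s * t) := by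
  rw [abs_lt] at hs ht
  have h0 : s * t ≤ 0 := by
    by_contra hc
    push Not at hc
    rcases mul_pos_iff.1 hc with ⟨h1, h2⟩ | ⟨h1, h2⟩
    · have e : α * (s * (1 - t)) + β * (t * (1 - s)) = 0 := by
        linear_combination (-1 : ℝ) * h - s * t * hαβ
      have := mul_pos (by linarith : 0 < α) (mul_pos h1 (by linarith : 0 < 1 - t))
      have := mul_pos hβ (mul_pos h2 (by linarith : 0 < 1 - s))
      linarith
    · nlinarith [mul_pos (by linarith : 0 < α) (by linarith : 0 < -s),
        mul_pos hβ (by linarith : 0 < -t)]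
  have e : α * (s * s) = -(s * t) * (β - s) := by linear_combination (-s) * h
  have h1 : -(s * t) * (β - s) ≤ -(s * t) * (3 / 2) :=
    mul_le_mul_of_nonneg_left (by linarith) (by linarith)
  nlinarith [mul_self_nonneg s]

theorem num_case {a b : ℂ} {α β : ℝ} (ha : ‖a‖ < 1) (hb : ‖b‖ < 1) (hβ : 0 ≤ β)
    (hαβ : α + β = 1) (hα : β ≤ α) (h1 : a * b = α * a + β * b)
    (h2 : a * conj b = α * a + β * conj b) (h3 : conj a * b = α * conj a + β * b) :
    Complex.normSq a ≤ 3 * -(a * b).re := by
  have hb1 : b ≠ 1 := by rintro rfl; simp at hb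
  have hα0 : (α : ℂ) ≠ 0 := by
    have : α ≠ 0 := (show 0 < α by linarith).ne'
    exact_mod_cast this
  rcases hβ.eq_or_lt with rfl | hβ
  · have : α = 1 := by linarith
    subst this
    have : a * (b - 1) = 0 := by push_cast at h1; linear_combination h1
    have : a = 0 := (mul_eq_zero.1 this).resolve_right (sub_ne_zero.2 hb1)
    simp [this]
  have hβ0 : (β : ℂ) ≠ 0 := by exact_mod_cast hβ.ne'
  have hbr : conj b = b := by
    by_contra hc
    have : (a - β) * (conj b - b) = 0 := by linear_combination h2 - h1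
    have e : a = β := sub_eq_zero.1 ((mul_eq_zero.1 this).resolve_right (sub_ne_zero.2 hc))
    rw [e] at h1
    exact mul_ne_zero hα0 hβ0 (by linear_combination -h1)
  have har : conj a = a := by
    by_contra hc
    have : (b - α) * (conj a - a) = 0 := by linear_combination h3 - h1
    have e : b = α := sub_eq_zero.1 ((mul_eq_zero.1 this).resolve_right (sub_ne_zero.2 hc))
    rw [e] at h1
    exact mul_ne_zero hα0 hβ0 (by linear_combination -h1)
  obtain ⟨s, rfl⟩ := Complex.conj_eq_iff_real.1 har
  obtain ⟨t, rfl⟩ := Complex.conj_eq_iff_real.1 hbr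
  rw [Complex.norm_real, Real.norm_eq_abs] at ha hb
  rw [Complex.normSq_ofReal, ← Complex.ofReal_mul, Complex.ofReal_re]
  exact num_real ha hb hβ hαβ hα (by exact_mod_cast h1)

namespace Alg

variable {w : ι → ℝ} {o : ι} {T : Finset (ι → ℂ)} {N : ℝ} (A : Alg w o T N)
include A

theorem ne_zero : (N : ℂ) ≠ 0 := by exact_mod_cast A.pos.ne'

theorem tr_pr (h : ι → ℂ) {v : ι → ℂ} (hv : v ∈ T) : tr w (pr w T N h * v) = tr w (h * v) := by
  rw [pr, Finset.sum_mul, map_sum, Finset.sum_eq_single (star v)]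
  · rw [smul_mul_assoc, map_smul, star_star, mul_comm (star v), A.self v hv, smul_eq_mul,
      div_mul_cancel₀ _ A.ne_zero]
  · intro u hu hne
    rw [smul_mul_assoc, map_smul, A.orth u hu v hv (fun e => hne (by rw [e, star_star])), smul_zero]
  · intro h; exact absurd (A.star_mem v hv) h

theorem pr_eq {h : ι → ℂ} (hh : h ∈ Submodule.span ℂ (T : Set (ι → ℂ))) : pr w T N h = h := by
  have h1 : ∀ v ∈ T, tr w (star (pr w T N h - h) * v) = 0 := by
    intro v hv
    have : star (pr w T N h - h) * v = star ((pr w T N h - h) * star v) := by simp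
    rw [this, tr_star, sub_mul, map_sub, A.tr_pr h (A.star_mem v hv), sub_self, map_zero]
  exact sub_eq_zero.1 (eq_zero_of_tr A.w_pos
    (tr_mul_span h1 (Submodule.sub_mem _ (pr_mem w T N h) hh)))

theorem tr_rem (f : ι → ℂ) {v : ι → ℂ} (hv : v ∈ T) : tr w (rem w T N f * v) = 0 := by
  rw [rem, sub_mul, map_sub, A.tr_pr _ hv, sub_self]

theorem tr_span {h : ι → ℂ} (hh : h ∈ Submodule.span ℂ (T : Set (ι → ℂ))) : tr w h = 0 := by
  simpa using tr_mul_span (g := 1) (fun v hv => by simpa using A.one v hv) hh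

theorem tr_rem_one {f : ι → ℂ} (hf : f ∈ T) : tr w (rem w T N f) = N := by
  rw [rem, map_sub, A.self f hf, A.tr_span (pr_mem w T N _), sub_zero]

theorem pr_o (h : ι → ℂ) : pr w T N h o = ∑ u ∈ T, tr w (h * star u) / N := by
  rw [pr, Finset.sum_apply]
  exact Finset.sum_congr rfl fun u hu => by simp [A.apply_o u hu]

theorem tr_three {g h u : ι → ℂ} (hg : ∀ v ∈ T, tr w (g * v) = 0)
    (hh : h ∈ Submodule.span ℂ (T : Set (ι → ℂ))) (hu : u ∈ T) :
    tr w (g * h * star u) = tr w (h * star u) / N * tr w (g * (u * star u)) := by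
  conv_lhs => rw [← A.pr_eq hh, pr, Finset.mul_sum, Finset.sum_mul, map_sum]
  rw [Finset.sum_eq_single u]
  · rw [mul_smul_comm, smul_mul_assoc, map_smul, smul_eq_mul, mul_assoc]
  · intro v hv hne
    rw [mul_smul_comm, smul_mul_assoc, map_smul, mul_assoc, tr_mul_span hg
      (A.mul_mem v hv _ (A.star_mem u hu) fun e => hne (star_injective e).symm), smul_zero]
  · intro h; exact absurd hu h

/-- If `u` occurs in `x * y` and `u ≠ x`, then `u` and `y` have the same remainder. -/
theorem rem_eq {x y u : ι → ℂ} (hx : x ∈ T) (hy : y ∈ T) (hu : u ∈ T) (hxy : y ≠ star x)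
    (hux : u ≠ x) (hc : tr w (x * y * star u) ≠ 0) : rem w T N u = rem w T N y := by
  have key : ∀ g, (∀ v ∈ T, tr w (g * v) = 0) →
      tr w (g * (u * star u)) = tr w (g * (y * star y)) := by
    intro g hg
    have h1 := A.tr_three hg (A.mul_mem x hx y hy hxy) hu
    have h2 := A.tr_three hg (A.mul_mem x hx _ (A.star_mem u hu)
      fun e => hux (star_injective e)) (A.star_mem y hy)
    rw [star_star, show g * (x * star u) * y = g * (x * y) * star u by ring, h1,
      show x * star u * y = x * y * star u by ring, mul_comm (star y)] at h2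
    exact mul_left_cancel₀ (div_ne_zero hc A.ne_zero) h2
  have h1 : ∀ v ∈ T, tr w (star (rem w T N u - rem w T N y) * v) = 0 := by
    intro v hv
    have : star (rem w T N u - rem w T N y) * v = star ((rem w T N u - rem w T N y) * star v) := by
      simp
    rw [this, tr_star, sub_mul, map_sub, A.tr_rem _ (A.star_mem v hv),
      A.tr_rem _ (A.star_mem v hv), sub_self, map_zero]
  refine sub_eq_zero.1 (eq_zero_of_tr A.w_pos ?_)
  generalize star (rem w T N u - rem w T N y) = g at h1
  rw [rem, rem, mul_sub, mul_sub, mul_sub, map_sub, map_sub, map_sub, key g h1,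
    tr_mul_span h1 (pr_mem w T N _), tr_mul_span h1 (pr_mem w T N _), sub_self]

omit A in
theorem rem_star (f : ι → ℂ) : rem w T N (star f) = rem w T N f := by
  rw [rem, rem, star_star, mul_comm]

theorem mul_eq_of_ne {x y : ι → ℂ} (hx : x ∈ T) (hy : y ∈ T)
    (hr : rem w T N x ≠ rem w T N y) :
    x * y = (tr w (x * y * star x) / N) • x + (tr w (x * y * star y) / N) • y := by
  classical
  have hxy : y ≠ star x := fun e => hr (by rw [e, rem_star])
  have hne : x ≠ y := fun e => hr (by rw [e])
  conv_lhs => rw [← A.pr_eq (A.mul_mem x hx y hy hxy), pr]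
  rw [← Finset.sum_pair (f := fun u => (tr w (x * y * star u) / N) • u) hne]
  refine (Finset.sum_subset (by simp [Finset.insert_subset_iff, hx, hy]) fun u hu hn => ?_).symm
  simp only [Finset.mem_insert, Finset.mem_singleton, not_or] at hn
  by_cases hc : tr w (x * y * star u) = 0
  · simp [hc]
  · exact absurd ((A.rem_eq hy hx hu (fun e => hxy (by rw [e, star_star])) hn.2
      (by rwa [mul_comm y])).symm.trans (A.rem_eq hx hy hu hxy hn.1 hc)) hr

theorem le_four_aux {x y : ι → ℂ} (hx : x ∈ T) (hy : y ∈ T) (hr : rem w T N x ≠ rem w T N y)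
    (hle : (tr w (x * y * star y)).re ≤ (tr w (x * y * star x)).re) : N ≤ 4 := by
  classical
  have hxy : y ≠ star x := fun e => hr (by rw [e, rem_star])
  obtain ⟨a, ha0, ha⟩ : ∃ a : ℝ, 0 ≤ a ∧ tr w (x * y * star x) = a :=
    ⟨_, (Complex.nonneg_iff.1 (A.nonneg x hx y hy _ (A.star_mem x hx))).1,
      (Complex.eq_re_of_ofReal_le (A.nonneg x hx y hy _ (A.star_mem x hx)))⟩
  obtain ⟨b, hb0, hb⟩ : ∃ a : ℝ, 0 ≤ a ∧ tr w (x * y * star y) = a :=
    ⟨_, (Complex.nonneg_iff.1 (A.nonneg x hx y hy _ (A.star_mem y hy))).1,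
      (Complex.eq_re_of_ofReal_le (A.nonneg x hx y hy _ (A.star_mem y hy)))⟩
  rw [ha, hb, Complex.ofReal_re, Complex.ofReal_re] at hle
  have h1 := A.mul_eq_of_ne hx hy hr
  have h2 := A.mul_eq_of_ne hx (A.star_mem y hy) (by rwa [rem_star])
  have h3 := A.mul_eq_of_ne (A.star_mem x hx) hy (by rwa [rem_star])
  have e1 : tr w (x * star y * star x) = a := by
    rw [show x * star y * star x = star (x * y * star x) by simp [mul_comm, mul_left_comm], tr_star,
      ha, Complex.conj_ofReal]
  have e2 : tr w (star x * y * star y) = b := by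
    rw [show star x * y * star y = star (x * y * star y) by
      rw [star_mul', star_mul', star_star]; ring, tr_star, hb, Complex.conj_ofReal]
  rw [star_star, show x * star y * y = x * y * star y by ring, e1, hb] at h2
  rw [star_star, show star x * y * x = x * y * star x by ring, e2, ha] at h3
  rw [ha, hb] at h1
  have hs : a / N + b / N = 1 := by
    have := congrFun h1 o
    simp only [Pi.mul_apply, Pi.add_apply, Pi.smul_apply, A.apply_o x hx, A.apply_o y hy,
      smul_eq_mul, mul_one] at this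
    exact_mod_cast this.symm
  have hpt : ∀ i, i ≠ o → Complex.normSq (x i) ≤ 3 * -(x i * y i).re := fun i hi =>
    num_case (α := a / N) (β := b / N) (A.lt x hx i hi) (A.lt y hy i hi)
      (div_nonneg hb0 A.pos.le) hs (div_le_div_of_nonneg_right hle A.pos.le)
      (by simpa using congrFun h1 i) (by simpa using congrFun h2 i) (by simpa using congrFun h3 i)
  have s1 : ∑ i, w i * Complex.normSq (x i) = N := by
    have : tr w (x * star x) = ((∑ i, w i * Complex.normSq (x i) : ℝ) : ℂ) := by
      rw [tr_apply]; push_cast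
      exact Finset.sum_congr rfl fun i _ => by simp [Complex.mul_conj]
    exact_mod_cast this.symm.trans (A.self x hx)
  have s2 : ∑ i, w i * (x i * y i).re = 0 := by
    have := congrArg Complex.re (A.orth x hx y hy hxy)
    rw [tr_apply, Complex.re_sum] at this
    simpa only [Complex.re_ofReal_mul, Pi.mul_apply, Complex.zero_re] using this
  rw [← Finset.add_sum_erase _ _ (Finset.mem_univ o)] at s1 s2
  rw [A.w_o, A.apply_o x hx] at s1 s2
  rw [A.apply_o y hy] at s2
  have s3 : ∑ i ∈ Finset.univ.erase o, w i * Complex.normSq (x i) ≤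
      ∑ i ∈ Finset.univ.erase o, -3 * (w i * (x i * y i).re) :=
    Finset.sum_le_sum fun i hi => by
      have := mul_le_mul_of_nonneg_left (hpt i (Finset.ne_of_mem_erase hi)) (A.w_pos i).le
      linarith
  rw [← Finset.mul_sum] at s3
  simp only [Complex.normSq_one, mul_one, Complex.one_re] at s1 s2
  linarith

theorem le_four {x y : ι → ℂ} (hx : x ∈ T) (hy : y ∈ T) (hr : rem w T N x ≠ rem w T N y) :
    N ≤ 4 := by
  rcases le_total (tr w (x * y * star y)).re (tr w (x * y * star x)).re with h | h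
  · exact A.le_four_aux hx hy hr h
  · exact A.le_four_aux hy hx hr.symm (by rwa [mul_comm y x])

theorem tr_eq_of_zero {f : ι → ℂ} (h : ∀ i, i ≠ o → f i = 0) : tr w f = f o := by
  rw [tr_apply, Finset.sum_eq_single o (fun i _ hi => by rw [h i hi, mul_zero]) (by simp), A.w_o]
  simp

theorem not_all_rem_eq {x y : ι → ℂ} (hx : x ∈ T) (hy : y ∈ T) (hne : x ≠ y)
    (hk : (T.card : ℝ) + 1 ≤ N) (hr : ∀ f ∈ T, rem w T N f = rem w T N y) : False := by
  set r := rem w T N y with hrdef
  let U := Submodule.span ℂ (T : Set (ι → ℂ))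
  let W : Submodule ℂ (ι → ℂ) := U ⊔ Submodule.span ℂ {r}
  have hrW : r ∈ W := Submodule.mem_sup_right (Submodule.subset_span rfl)
  have hsq : ∀ f ∈ T, f * star f = pr w T N (f * star f) + r := fun f hf => by
    rw [← hr f hf, rem]; ring
  have hmul : ∀ f ∈ T, ∀ g ∈ T, f * g ∈ W := by
    intro f hf g hg
    by_cases h : g = star f
    · rw [h, hsq f hf]
      exact W.add_mem (Submodule.mem_sup_left (pr_mem w T N _)) hrW
    · exact Submodule.mem_sup_left (A.mul_mem f hf g hg h)
  have hmulU : ∀ h ∈ U, ∀ g ∈ T, h * g ∈ W := by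
    intro h hh g hg
    induction hh using Submodule.span_induction with
    | mem f hf => exact hmul f hf g hg
    | zero => simp
    | add a b _ _ ha hb => rw [add_mul]; exact W.add_mem ha hb
    | smul c a _ ha => rw [smul_mul_assoc]; exact W.smul_mem c ha
  have hry : r * y ∈ W := by
    have e : r * y = star x * y * x - pr w T N (x * star x) * y := by
      rw [← hr x hx, rem]; ring
    rw [e]
    exact W.sub_mem (hmulU _ (A.mul_mem _ (A.star_mem x hx) y hy (by rw [star_star]; exact hne.symm))
      x hx) (hmulU _ (pr_mem w T N _) y hy)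
  have huniq : ∀ h ∈ W, tr w h = 0 → (∀ v ∈ T, tr w (h * v) = 0) → h = 0 := by
    intro h hh h0 h1
    obtain ⟨u, hu, z, hz, rfl⟩ := Submodule.mem_sup.1 hh
    obtain ⟨γ, rfl⟩ := Submodule.mem_span_singleton.1 hz
    rw [map_add, map_smul, A.tr_span hu, A.tr_rem_one hy, zero_add, smul_eq_mul] at h0
    rw [(mul_eq_zero.1 h0).resolve_right A.ne_zero, zero_smul, add_zero] at h1 ⊢
    rw [← A.pr_eq hu, pr]
    exact Finset.sum_eq_zero fun v hv => by simp [h1 _ (A.star_mem v hv)]
  have hrv : ∀ v ∈ T, tr w (r * v) = 0 := fun v hv => A.tr_rem y hv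
  -- step 1
  have h1 : r * y = (tr w (r * y * star y) / N) • y := by
    refine sub_eq_zero.1 (huniq _ (W.sub_mem hry (W.smul_mem _
      (Submodule.mem_sup_left (Submodule.subset_span hy)))) ?_ fun v hv => ?_)
    · rw [map_sub, map_smul, hrv y hy, A.one y hy, smul_zero, sub_zero]
    · rw [sub_mul, map_sub, smul_mul_assoc, map_smul]
      by_cases h : v = star y
      · rw [h, A.self y hy, smul_eq_mul, div_mul_cancel₀ _ A.ne_zero, sub_self]
      · rw [mul_assoc, tr_mul_span hrv (A.mul_mem y hy v hv h), A.orth y hy v hv h, smul_zero,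
          sub_zero]
  have h2 : tr w (r * y * star y) / N = r o := by
    have := congrFun h1 o
    simp only [Pi.mul_apply, Pi.smul_apply, A.apply_o y hy, smul_eq_mul, mul_one] at this
    exact this.symm
  -- step 2
  set G : ι → ℂ := ∑ v ∈ T, v with hG
  have hGU : G ∈ U := Submodule.sum_mem _ fun v hv => Submodule.subset_span hv
  have hGv : ∀ v ∈ T, tr w (G * v) = N := by
    intro v hv
    rw [hG, Finset.sum_mul, map_sum, Finset.sum_eq_single (star v)]
    · rw [mul_comm, A.self v hv]
    · exact fun u hu h => A.orth u hu v hv fun e => h (by rw [e, star_star])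
    · intro h; exact absurd (A.star_mem v hv) h
  have hGh : ∀ h ∈ U, tr w (G * h) = N * h o := by
    intro h hh
    induction hh using Submodule.span_induction with
    | mem f hf => rw [hGv f hf, A.apply_o f hf, mul_one]
    | zero => simp
    | add a b _ _ ha hb => rw [mul_add, map_add, ha, hb, Pi.add_apply, mul_add]
    | smul c a _ ha => rw [mul_smul_comm, map_smul, ha, Pi.smul_apply, smul_eq_mul, smul_eq_mul]; ring
  have hyo : pr w T N (y * star y) o + r o = 1 := by
    have := congrFun (hsq y hy) o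
    simp only [Pi.mul_apply, Pi.star_apply, A.apply_o y hy, star_one, mul_one, Pi.add_apply] at this
    exact this.symm
  have hFy : tr w ((G + r) * y) = N := by rw [add_mul, map_add, hGv y hy, hrv y hy, add_zero]
  have h3 : (G + r) * y = G + r := by
    refine sub_eq_zero.1 (huniq _ (W.sub_mem ?_ (W.add_mem (Submodule.mem_sup_left hGU) hrW)) ?_
      fun v hv => ?_)
    · rw [add_mul]; exact W.add_mem (hmulU G hGU y hy) hry
    · rw [map_sub, hFy, map_add, A.tr_span hGU, A.tr_rem_one hy, zero_add, sub_self]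
    · rw [sub_mul, map_sub, add_mul G r v, map_add, hGv v hv, hrv v hv, add_zero, add_mul, add_mul,
        map_add, sub_eq_zero]
      by_cases h : v = star y
      · have e : tr w (r * y * star y) = N * r o := by
          rw [← h2, mul_div_cancel₀ _ A.ne_zero]
        rw [h, e, mul_assoc G, hsq y hy, mul_add, map_add, hGh _ (pr_mem w T N _), mul_comm G r,
          tr_mul_span hrv hGU, add_zero, ← mul_add, hyo, mul_one]
      · rw [mul_assoc, mul_assoc, hGh _ (A.mul_mem y hy v hv h),
          tr_mul_span hrv (A.mul_mem y hy v hv h)]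
        simp [A.apply_o y hy, A.apply_o v hv]
  -- step 3
  have hy1 : ∀ i, i ≠ o → y i ≠ 1 := fun i hi e => by
    have := A.lt y hy i hi
    rw [e] at this; simp at this
  have h4 : (T.card : ℂ) + r o = N := by
    rw [← hFy, h3, A.tr_eq_of_zero fun i hi => ?_]
    · rw [Pi.add_apply, hG, Finset.sum_apply, Finset.sum_congr rfl fun v hv => A.apply_o v hv]
      simp
    · have := congrFun h3 i
      rw [Pi.mul_apply] at this
      exact (mul_eq_zero.1 (show (G + r) i * (y i - 1) = 0 by linear_combination this)).resolve_right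
        (sub_ne_zero.2 (hy1 i hi))
  have hc : ∀ u ∈ T, 0 ≤ tr w (y * star y * star u) / N := fun u hu =>
    div_nonneg (A.nonneg y hy _ (A.star_mem y hy) _ (A.star_mem u hu))
      (by exact_mod_cast A.pos.le)
  have h5 : ∑ u ∈ T, tr w (y * star y * star u) / N = 0 := by
    refine le_antisymm ?_ (Finset.sum_nonneg hc)
    rw [← A.pr_o, show pr w T N (y * star y) o = (((T.card : ℝ) + 1 - N : ℝ) : ℂ) by
      push_cast; linear_combination hyo - h4]
    exact_mod_cast sub_nonpos.2 hk
  have h6 : pr w T N (y * star y) = 0 :=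
    Finset.sum_eq_zero fun u hu => by
      rw [(Finset.sum_eq_zero_iff_of_nonneg hc).1 h5 u hu, zero_smul]
  rw [h6, Pi.zero_apply, zero_add] at hyo
  have h7 := hsq y hy
  rw [h6, zero_add] at h7
  rw [h2, hyo, one_smul, ← h7] at h1
  have h8 : ∀ i, i ≠ o → y i = 0 := by
    intro i hi
    have := congrFun h1 i
    simp only [Pi.mul_apply, Pi.star_apply, RCLike.star_def, Complex.mul_conj] at this
    by_contra h0
    have h9 : Complex.normSq (y i) = 1 := by
      exact_mod_cast mul_right_cancel₀ h0 (this.trans (one_mul _).symm)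
    have := A.lt y hy i hi
    rw [Complex.normSq_eq_norm_sq] at h9
    nlinarith [norm_nonneg (y i)]
  have h9 := A.self y hy
  rw [A.tr_eq_of_zero fun i hi => by simp [h8 i hi]] at h9
  simp only [Pi.mul_apply, Pi.star_apply, A.apply_o y hy, star_one, mul_one] at h9
  have h10 : N = 1 := by exact_mod_cast h9.symm
  have : 0 < T.card := Finset.card_pos.2 ⟨y, hy⟩
  have : (1 : ℝ) ≤ T.card := by exact_mod_cast this
  linarith

/-- There is only one column. -/
theorem eq_of_mem (hk : (T.card : ℝ) + 1 ≤ N)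
    (h5 : ∀ x ∈ T, ∀ y ∈ T, y ≠ x → y ≠ star x → 4 < N) {x y : ι → ℂ} (hx : x ∈ T)
    (hy : y ∈ T) : x = y := by
  by_contra hne
  refine A.not_all_rem_eq hx hy hne hk fun f hf => ?_
  by_contra hr
  exact absurd (A.le_four hf hy hr) (not_le.2 (h5 f hf y hy (fun e => hr (by rw [e]))
    fun e => hr (by rw [e, rem_star])))

end Alg

end Cfsg.Lib.GlSz
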