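import Cfsg.Agent.GlSz.Alg
import Cfsg.Agent.GlSz.Pair
import Cfsg.Agent.Block.PrincNilp
import Cfsg.Agent.Char.Burnside
import Cfsg.Agent.Char.Degree

/-!
# Normalised columns of the principal block; the nontrivial elements of `V` are conjugate
-/

set_option autoImplicit false

open scoped ComplexConjugate ComplexOrder
open Cfsg Subgroup Cfsg.Lib.Char Cfsg.Lib.Block Cfsg.Lib.Block.Princ

namespace Cfsg.Lib.GlSz

variable {G : Type*} [Group G] [Finite G] {p : ℕ} [hp : Fact p.Prime] {M : Ideal AlgInt}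

/-- A `p`-element centralising `P` whose centraliser has a normal `p`-complement. -/
structure Cen (p : ℕ) {G : Type*} [Group G] (P : Sylow p G) (u : G) : Prop where
  ord : ∃ k, orderOf u = p ^ k
  comm : ∀ y ∈ (P : Subgroup G), u * y = y * u
  nil : ∃ k : ℕ, (pPrimeCore p (centralizer ({u} : Set G))).index = p ^ k

theorem Cen.index_eq {P : Sylow p G} {u : G} (h : Cen p P u) :
    (pPrimeCore p (centralizer ({u} : Set G))).index = Nat.card P := by
  have hle : (P : Subgroup G) ≤ centralizer {u} := fun y hy =>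
    mem_centralizer_singleton_iff.2 (h.comm y hy).symm
  rw [index_pPrimeCore_eq h.nil, ← (P.subtype hle).card_eq_multiplicity, Sylow.coe_subtype]
  exact Nat.card_congr (subgroupOfEquivOfLe hle).toEquiv

theorem Cen.sum_of_isConj (hM : IsPModular p M) {P : Sylow p G} {u g z : G} (h : Cen p P u)
    (hg : IsPPart p g z) (hz : IsConj u z) :
    ∑ χ ∈ irrFin (principalBlock M G), (χ : G → ℂ) g * conj ((χ : G → ℂ) u) = Nat.card P := by
  rw [← h.index_eq, ← sum_princ_sq_of_index hM h.ord h.nil]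
  exact Finset.sum_congr rfl fun χ hχ => by
    rw [princ_apply_of_isPPart hM h.nil (mem_irrFin.1 hχ) hg hz]

theorem sum_of_not_isConj (hM : IsPModular p M) {u g z : G} (h : ∃ k, orderOf u = p ^ k)
    (hg : IsPPart p g z) (hz : ¬ IsConj u z) :
    ∑ χ ∈ irrFin (principalBlock M G), (χ : G → ℂ) g * conj ((χ : G → ℂ) u) = 0 :=
  (isUnionOfBlocks_of_isPBlock hM Princ.isPBlock_principalBlock).sum_mul_conj_eq_zero hM hg
    (isPPart_self hp.out h) fun e => hz e.symm

theorem Cen.sum_nonneg (hM : IsPModular p M) {P : Sylow p G} {u : G} (h : Cen p P u) (g : G) :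
    0 ≤ ∑ χ ∈ irrFin (principalBlock M G), (χ : G → ℂ) g * conj ((χ : G → ℂ) u) := by
  obtain ⟨z, hz⟩ := exists_isPPart hp.out g
  by_cases hc : IsConj u z
  · rw [h.sum_of_isConj hM hz hc]; exact Nat.cast_nonneg _
  · rw [sum_of_not_isConj hM h.ord hz hc]

theorem Hyp.cen {P : Sylow p G} {V : Subgroup G} (h : Hyp p P V) {v : G} (hv : v ∈ V)
    (h1 : v ≠ 1) : Cen p P v :=
  ⟨⟨1, by rw [h.orderOf_eq hv h1, pow_one]⟩, h.cent v hv, h.nil v (h.orderOf_eq hv h1)⟩

/-- The normalised column of `g`. -/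
noncomputable def col (M : Ideal AlgInt) (g : G) : irrFin (principalBlock M G) → ℂ :=
  fun χ => (χ.1 : G → ℂ) g / (χ.1 : G → ℂ) 1

/-- The squares of the degrees. -/
noncomputable def wt (M : Ideal AlgInt) (G : Type*) [Group G] [Finite G] :
    irrFin (principalBlock M G) → ℝ :=
  fun χ => (charDegree (χ.1 : G → ℂ) : ℝ) ^ 2

omit hp in
theorem wt_cast (χ : irrFin (principalBlock M G)) : (wt M G χ : ℂ) = (χ.1 : G → ℂ) 1 ^ 2 := by
  rw [wt, ← Princ.charDegree_cast χ.1.2.isCharacter]; simp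

omit hp in
theorem conj_one (χ : IrrCharacter G) : conj ((χ : G → ℂ) 1) = (χ : G → ℂ) 1 := by
  rw [← χ.2.isCharacter.apply_inv, inv_one]

omit hp in
theorem star_col (g : G) : star (col M g) = col M g⁻¹ := by
  funext χ
  simp [col, conj_one, χ.1.2.isCharacter.apply_inv]

omit hp in
theorem col_one : col M (1 : G) = 1 := by
  funext χ
  simp [col, χ.1.2.apply_one_ne_zero]

omit hp in
theorem tr_col_mul (g u : G) : tr (wt M G) (col M g * star (col M u)) =
    ∑ χ ∈ irrFin (principalBlock M G), (χ : G → ℂ) g * conj ((χ : G → ℂ) u) := by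
  rw [tr_apply, ← Finset.sum_coe_sort (irrFin (principalBlock M G))]
  refine Finset.sum_congr rfl fun χ _ => ?_
  have := χ.1.2.apply_one_ne_zero
  simp only [wt_cast, col, Pi.mul_apply, Pi.star_apply, RCLike.star_def, map_div₀, conj_one]
  field_simp

omit hp in
theorem col_mul [Fintype G] (a b : G) :
    col M a * col M b = (Nat.card G : ℂ)⁻¹ • ∑ x : G, col M (a * (x * b * x⁻¹)) := by
  funext χ
  have h1 := χ.1.2.apply_one_ne_zero
  have h2 := card_ne_zero G
  simp only [col, Pi.mul_apply, Pi.smul_apply, Finset.sum_apply, smul_eq_mul, ← Finset.sum_div,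
    irr_sum_mul_conj χ.1.2]
  field_simp

omit hp in
theorem col_eq_of_isConj {a b : G} (h : IsConj a b) : col M a = col M b := by
  funext χ
  simp only [col, χ.1.2.isClassFunction.eq_of_isConj h]

theorem Cen.col_eq (hM : IsPModular p M) {P : Sylow p G} {u g z : G} (h : Cen p P u)
    (hg : IsPPart p g z) (hz : IsConj u z) : col M g = col M u := by
  funext χ
  simp only [col, princ_apply_of_isPPart hM h.nil (mem_irrFin.1 χ.2) hg hz]

omit hp in
theorem norm_lt [IsSimpleGroup G] (hna : ¬ ∀ a b : G, a * b = b * a) {χ : IrrCharacter G}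
    (hχ : χ ≠ triv G) {g : G} (hg : g ≠ 1) : ‖(χ : G → ℂ) g‖ < ‖(χ : G → ℂ) 1‖ :=
  lt_of_le_of_ne (IsCharacter_norm_le χ.2.isCharacter g) fun e =>
    hna (comm_of_simple_of_norm_eq χ.2 (fun h => hχ (eq_triv_iff.2 h)) hg e)

open Classical in
/-- The set of nontrivial elements of a subgroup. -/
noncomputable def nz [Fintype G] (V : Subgroup G) : Finset G :=
  Finset.univ.filter fun v => v ∈ V ∧ v ≠ 1

omit hp [Finite G] in
theorem mem_nz [Fintype G] {V : Subgroup G} {v : G} : v ∈ nz V ↔ v ∈ V ∧ v ≠ 1 := by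
  simp [nz]

omit hp [Finite G] in
theorem card_nz [Fintype G] (V : Subgroup G) : (nz V).card + 1 = Nat.card V := by
  classical
  have h1 : Nat.card V = (Finset.univ.filter fun v => v ∈ V).card := by
    rw [← Fintype.card_subtype, Nat.card_eq_fintype_card]
  have h2 : (Finset.univ.filter fun v => v ∈ V) = insert 1 (nz V) := by
    ext v
    simp only [Finset.mem_filter, Finset.mem_univ, true_and, Finset.mem_insert, mem_nz]
    by_cases h : v = 1 <;> simp [h]
  rw [h1, h2, Finset.card_insert_of_notMem (by simp [mem_nz])]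

open Classical in
theorem Hyp.alg [Fintype G] [IsSimpleGroup G] (hna : ¬ ∀ a b : G, a * b = b * a)
    (hM : IsPModular p M) {P : Sylow p G} {V : Subgroup G} (h : Hyp p P V) :
    Alg (wt M G) ⟨triv G, mem_irrFin.2 (triv_mem_principalBlock hM)⟩ ((nz V).image (col M))
      (Nat.card P) := by
  have hT : ∀ {f}, f ∈ (nz V).image (col M) ↔ ∃ v ∈ V, v ≠ 1 ∧ col M v = f := by
    simp [mem_nz, and_assoc]
  refine ⟨fun χ => ?_, ?_, fun f hf => ?_, fun f hf => ?_, fun f hf χ hχ => ?_, fun f hf => ?_,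
    fun f hf g hg hne => ?_, fun f hf => ?_, fun f hf g hg k hk => ?_, fun f hf g hg hne => ?_, ?_⟩
  · have := charDegree_pos χ.1.2
    rw [wt]; positivity
  · rw [wt, charDegree_eq_of_apply_one (n := 1) (by simp)]; simp
  · obtain ⟨v, hv, h1, rfl⟩ := hT.1 hf
    exact hT.2 ⟨v⁻¹, inv_mem hv, inv_ne_one.2 h1, (star_col v).symm⟩
  · obtain ⟨v, hv, h1, rfl⟩ := hT.1 hf
    simp [col]
  · obtain ⟨v, hv, h1, rfl⟩ := hT.1 hf
    have := norm_lt hna (χ := χ.1) (fun e => hχ (Subtype.ext e)) h1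
    rw [col, norm_div, div_lt_one ((norm_nonneg _).trans_lt this)]
    exact this
  · obtain ⟨v, hv, h1, rfl⟩ := hT.1 hf
    rw [tr_col_mul, (h.cen hv h1).sum_of_isConj hM (isPPart_self hp.out (h.cen hv h1).ord)
      (IsConj.refl v)]
    simp
  · obtain ⟨v, hv, h1, rfl⟩ := hT.1 hf
    obtain ⟨u, hu, h2, rfl⟩ := hT.1 hg
    rw [← star_star (col M u), star_col u, tr_col_mul]
    refine sum_of_not_isConj hM (h.cen (inv_mem hu) (inv_ne_one.2 h2)).ord
      (isPPart_self hp.out (h.cen hv h1).ord) fun e => hne ?_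
    rw [← col_eq_of_isConj e, star_col, inv_inv]
  · obtain ⟨v, hv, h1, rfl⟩ := hT.1 hf
    rw [← mul_one (col M v), ← star_one, ← col_one, tr_col_mul]
    exact sum_of_not_isConj hM ⟨0, by simp⟩ (isPPart_self hp.out (h.cen hv h1).ord)
      fun e => h1 (isConj_one_right.1 e)
  · obtain ⟨v, hv, h1, rfl⟩ := hT.1 hf
    obtain ⟨u, hu, h2, rfl⟩ := hT.1 hg
    obtain ⟨t, ht, h3, rfl⟩ := hT.1 hk
    rw [col_mul, ← star_star (col M t), star_col t, smul_mul_assoc, map_smul, Finset.sum_mul,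
      map_sum, smul_eq_mul]
    refine mul_nonneg (inv_nonneg.2 (Nat.cast_nonneg _)) (Finset.sum_nonneg fun x _ => ?_)
    rw [tr_col_mul]
    exact (h.cen (inv_mem ht) (inv_ne_one.2 h3)).sum_nonneg hM _
  · obtain ⟨v, hv, h1, rfl⟩ := hT.1 hf
    obtain ⟨u, hu, h2, rfl⟩ := hT.1 hg
    rw [col_mul]
    refine Submodule.smul_mem _ _ (Submodule.sum_mem _ fun x _ => Submodule.subset_span ?_)
    obtain ⟨a, ha, b, hb, hav, hbu, ⟨z, hz, hz'⟩, -⟩ := h.pair hv h1 hu h2 (IsConj.refl v)
      (isConj_iff.2 ⟨x, rfl⟩ : IsConj u (x * u * x⁻¹))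
    have hab : a * b ≠ 1 := fun e => hne (by
      rw [← col_eq_of_isConj hav, star_col, inv_eq_of_mul_eq_one_right e, col_eq_of_isConj hbu]
      exact col_eq_of_isConj (isConj_iff.2 ⟨x, rfl⟩))
    exact hT.2 ⟨a * b, mul_mem ha hb, hab,
      ((h.cen (mul_mem ha hb) hab).col_eq hM hz hz').symm⟩
  · exact_mod_cast Nat.card_pos

/-- For odd `p` the nontrivial elements of `V` are conjugate. -/
theorem Hyp.isConj [IsSimpleGroup G] (hna : ¬ ∀ a b : G, a * b = b * a) (hp2 : p ≠ 2)
    {P : Sylow p G} {V : Subgroup G} (h : Hyp p P V) {x y : G} (hx : x ∈ V) (hx1 : x ≠ 1)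
    (hy : y ∈ V) (hy1 : y ≠ 1) : IsConj x y := by
  classical
  have := Fintype.ofFinite G
  obtain ⟨M, hM⟩ := exists_isPModular hp.out
  have A := h.alg hna hM
  have hVP : Nat.card V ≤ Nat.card P := card_le_of_le h.le
  have hinv : ∀ v ∈ V, v ≠ 1 → v⁻¹ ≠ v := fun v hv h1 e => by
    have h2 : orderOf v ∣ 2 := orderOf_dvd_of_pow_eq_one (by
      rw [pow_two]; nth_rw 1 [← e]; exact inv_mul_cancel v)
    rw [h.orderOf_eq hv h1] at h2
    exact hp2 ((Nat.prime_dvd_prime_iff_eq hp.out Nat.prime_two).1 h2)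
  have he : col M x = col M y := by
    refine A.eq_of_mem ?_ (fun f hf g hg h1 h2 => ?_)
      (Finset.mem_image_of_mem _ (mem_nz.2 ⟨hx, hx1⟩))
      (Finset.mem_image_of_mem _ (mem_nz.2 ⟨hy, hy1⟩))
    · have h1 := Finset.card_image_le (s := nz V) (f := col M)
      have h2 := card_nz V
      exact_mod_cast (show ((nz V).image (col M)).card + 1 ≤ Nat.card P by omega)
    · obtain ⟨u, hu, rfl⟩ := Finset.mem_image.1 hf
      obtain ⟨v, hv, rfl⟩ := Finset.mem_image.1 hg
      rw [star_col] at h2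
      rw [mem_nz] at hu hv
      have e1 : v ≠ u := fun e => h1 (by rw [e])
      have e2 : v ≠ u⁻¹ := fun e => h2 (by rw [e])
      have h3 : ({u, u⁻¹, v, v⁻¹} : Finset G) ⊆ nz V := by
        simp [Finset.insert_subset_iff, mem_nz, hu.1, hu.2, hv.1, hv.2]
      have h4 : ({u, u⁻¹, v, v⁻¹} : Finset G).card = 4 := by
        have e3 := hinv u hu.1 hu.2
        have e4 := hinv v hv.1 hv.2
        have e5 : u ≠ v⁻¹ := fun e => e2 (by rw [e, inv_inv])
        rw [Finset.card_insert_of_notMem (by simp [e3.symm, e1.symm, e5]),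
          Finset.card_insert_of_notMem (by simp [e2.symm, e1.symm]), Finset.card_pair e4.symm]
      have h5 := Finset.card_le_card h3
      have h6 := card_nz V
      exact_mod_cast (show 4 < Nat.card P by omega)
  by_contra hc
  have h1 := sum_of_not_isConj hM (h.cen hx hx1).ord (isPPart_self hp.out (h.cen hy hy1).ord) hc
  rw [← tr_col_mul, ← he, A.self _ (Finset.mem_image_of_mem _ (mem_nz.2 ⟨hx, hx1⟩))] at h1
  exact A.ne_zero h1

end Cfsg.Lib.GlSz
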