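import Cfsg.Agent.Block.PrincNilp
import Cfsg.Agent.Block.PrincBurn
import Mathlib.GroupTheory.FixedPointFree

/-!
# Groups in which the centralisers of elements of order `p` have normal `p`-complements
-/

set_option autoImplicit false

open Cfsg Subgroup Cfsg.Lib.Block Cfsg.Lib.Block.Princ

namespace Cfsg.Lib.GlSz

variable {G : Type*} [Group G] [Finite G] {p : ℕ} [hp : Fact p.Prime]

/-- The group has a normal `p`-complement. -/
def Npc (p : ℕ) (C : Type*) [Group C] : Prop := ∃ k : ℕ, (pPrimeCore p C).index = p ^ k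

theorem Npc.of_injective {K : Type*} [Group K] (h : Npc p G) (f : K →* G)
    (hf : Function.Injective f) : Npc p K := by
  have := Finite.of_injective f hf
  obtain ⟨k, hk⟩ := h
  have h1 : (pPrimeCore p G).comap f ≤ pPrimeCore p K :=
    Solv.le_pPrimeCore inferInstance ((Solv.coprime_card_pPrimeCore p G).coprime_dvd_left
      (card_comap_dvd_of_injective _ f hf))
  have h2 : (pPrimeCore p K).index ∣ p ^ k := by
    refine (index_dvd_of_le h1).trans ?_
    rw [index_comap, ← hk]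
    exact relIndex_dvd_index_of_normal _ _
  obtain ⟨j, -, hj⟩ := (Nat.dvd_prime_pow hp.out).1 h2
  exact ⟨j, hj⟩

theorem Npc.of_le {H K : Subgroup G} (h : Npc p K) (hle : H ≤ K) : Npc p H :=
  h.of_injective (inclusion hle) (inclusion_injective hle)

theorem npc_of_hasNormalPComplement (h : HasNormalPComplement p G) : Npc p G := by
  obtain ⟨P, N, hN, hc⟩ := h
  exact ⟨_, (index_pPrimeCore_of_isComplement' P hN hc).trans P.card_eq_multiplicity⟩

omit [Finite G] in
theorem eq_one_of_pow_of_not_dvd {x : G} (h1 : ∃ k, orderOf x = p ^ k) (h2 : ¬ p ∣ orderOf x) :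
    x = 1 := by
  obtain ⟨k, hk⟩ := h1
  rcases k with _ | k
  · exact orderOf_eq_one_iff.1 (by simpa using hk)
  · exact absurd (hk ▸ dvd_pow_self p k.succ_ne_zero) h2

theorem Npc.not_dvd_comm {C : Subgroup G} (h : Npc p C) {e y : G} (he : e ∈ C) (hy : y ∈ C)
    (hreg : ¬ p ∣ orderOf e) : ¬ p ∣ orderOf (e * y * e⁻¹ * y⁻¹) := by
  have h1 : (⟨e, he⟩ : C) ∈ pPrimeCore p C :=
    mem_pPrimeCore_of_index hp.out h (by rwa [orderOf_mk])
  have h2 : (⟨e, he⟩ : C) * (⟨y, hy⟩ * (⟨e, he⟩ : C)⁻¹ * (⟨y, hy⟩ : C)⁻¹) ∈ pPrimeCore p C :=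
    mul_mem h1 (Normal.conj_mem inferInstance _ (inv_mem h1) _)
  have h3 := not_dvd_orderOf_of_mem_pPrimeCore h2
  rw [← orderOf_coe] at h3
  simpa [mul_assoc] using h3

theorem Npc.comm {C : Subgroup G} (h : Npc p C) {e y : G} (he : e ∈ C) (hy : y ∈ C)
    (hreg : ¬ p ∣ orderOf e) {Q : Subgroup G} (hQ : IsPGroup p Q) (hm : e * y * e⁻¹ * y⁻¹ ∈ Q) :
    e * y = y * e := by
  have := eq_one_of_pow_of_not_dvd (orderOf_eq_pow_of_mem hQ hm) (h.not_dvd_comm he hy hreg)
  rwa [mul_inv_eq_one, mul_inv_eq_iff_eq_mul] at this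

theorem exists_pow_eq_prime {x : G} (h : ∃ k, orderOf x = p ^ k) (h1 : x ≠ 1) :
    ∃ n : ℕ, orderOf (x ^ n) = p := by
  have hd : p ∣ orderOf x := by
    by_contra hc
    exact h1 (eq_one_of_pow_of_not_dvd h hc)
  exact ⟨_, orderOf_pow_orderOf_div (orderOf_pos x).ne' hd⟩

/-- Centralisers of elements of order `p` have normal `p`-complements. -/
def Nil (p : ℕ) (G : Type*) [Group G] : Prop :=
  ∀ x : G, orderOf x = p → Npc p (centralizer ({x} : Set G))

theorem Nil.npc (h : Nil p G) {x : G} (hx : ∃ k, orderOf x = p ^ k) (h1 : x ≠ 1) :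
    Npc p (centralizer ({x} : Set G)) := by
  obtain ⟨n, hn⟩ := exists_pow_eq_prime hx h1
  exact (h _ hn).of_le fun g hg => mem_centralizer_singleton_iff.2
    ((show Commute g x from mem_centralizer_singleton_iff.1 hg).pow_right n).eq

omit [Finite G] hp in
theorem comm_mem_of_normalizer {P : Subgroup G} {e y : G} (he : e ∈ normalizer (P : Set G))
    (hy : y ∈ P) : e * y * e⁻¹ * y⁻¹ ∈ P :=
  mul_mem ((mem_normalizer_iff.1 he y).1 hy) (inv_mem hy)

/-- A `p`-regular element normalising `P` and fixing a nontrivial element `y` of `P` centralises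
the centraliser of `y` in `P`. -/
theorem Nil.comm (h : Nil p G) {P : Subgroup G} (hP : IsPGroup p P) {e y v : G}
    (he : e ∈ normalizer (P : Set G)) (hreg : ¬ p ∣ orderOf e) (hy : y ∈ P) (hy1 : y ≠ 1)
    (hc : e * y = y * e) (hv : v ∈ P) (hvy : v * y = y * v) : e * v = v * e :=
  (h.npc (orderOf_eq_pow_of_mem hP hy) hy1).comm (mem_centralizer_singleton_iff.2 hc)
    (mem_centralizer_singleton_iff.2 hvy) hreg hP (comm_mem_of_normalizer he hv)

theorem exists_reg (P : Sylow p G) {n : G} (hn : n ∈ normalizer ((P : Subgroup G) : Set G)) :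
    ∃ z ∈ (P : Subgroup G), ∃ e ∈ zpowers n, ¬ p ∣ orderOf e ∧ n = z * e := by
  obtain ⟨z, hz⟩ := exists_isPPart hp.out n
  have h1 := IsPPart_mem_zpowers hp.out hz
  have h2 : z ∈ (P : Subgroup G) := by
    have := (IsPPart_isPGroup_zpowers hp.out hz).inf_normalizer_sylow P
    have h3 : z ∈ zpowers z ⊓ normalizer ((P : Subgroup G) : Set G) :=
      ⟨mem_zpowers z, zpowers_le.2 hn h1⟩
    exact (this.le h3).2
  exact ⟨z, h2, z⁻¹ * n, mul_mem (inv_mem h1) (mem_zpowers n), IsPPart_not_dvd hz, by group⟩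

theorem burnside (P : Sylow p G) {x y : G} (hx : ∀ g ∈ (P : Subgroup G), x * g = g * x)
    (hy : ∀ g ∈ (P : Subgroup G), y * g = g * y) (h : IsConj x y) :
    ∃ n ∈ normalizer ((P : Subgroup G) : Set G), n * x * n⁻¹ = y := by
  obtain ⟨g, rfl⟩ := isConj_iff.1 h
  obtain ⟨n, hn, e⟩ := P.conj_eq_normalizer_conj_of_mem_centralizer x g⁻¹
    (mem_centralizer_iff.2 fun g hg => (hx g hg).symm)
    (mem_centralizer_iff.2 fun k hk => by rw [inv_inv]; exact (hy k hk).symm)
  exact ⟨n⁻¹, inv_mem hn, by rw [inv_inv] at e ⊢; exact e.symm⟩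

/-- Fusion of central elements of `P` by `p`-regular elements of the normaliser. -/
theorem burnside_reg (P : Sylow p G) {x y : G} (hx : ∀ g ∈ (P : Subgroup G), x * g = g * x)
    (hy : ∀ g ∈ (P : Subgroup G), y * g = g * y) (h : IsConj x y) :
    ∃ e ∈ normalizer ((P : Subgroup G) : Set G), ¬ p ∣ orderOf e ∧ e * x * e⁻¹ = y := by
  obtain ⟨n, hn, e⟩ := burnside P hx hy h
  obtain ⟨z, hz, f, hf, h1, rfl⟩ := exists_reg P hn
  refine ⟨f, zpowers_le.2 hn hf, h1, ?_⟩
  calc f * x * f⁻¹ = z⁻¹ * (z * f * x * (z * f)⁻¹) * z := by group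
    _ = y := by rw [e, mul_assoc, hy z hz]; group

/-- If a central element of `P` of odd order is real then `P` is abelian. -/
theorem Nil.comm_of_real (h : Nil p G) (P : Sylow p G) {x : G} (hxP : x ∈ (P : Subgroup G))
    (hx : ∀ g ∈ (P : Subgroup G), x * g = g * x) (hx1 : x⁻¹ ≠ x) (hc : IsConj x x⁻¹) :
    ∀ a ∈ (P : Subgroup G), ∀ b ∈ (P : Subgroup G), a * b = b * a := by
  obtain ⟨e, he, hreg, hex⟩ := burnside_reg P hx
    (fun g hg => ((show Commute x g from hx g hg).inv_left).eq) hc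
  have hx0 : x ≠ 1 := fun e => hx1 (by rw [e, inv_one])
  let φ : P →* P := (P : Subgroup G).normalizerMonoidHom ⟨e, he⟩
  have hφ : ∀ y : P, ((φ y : P) : G) = e * y * e⁻¹ := fun y => rfl
  have h1 : MonoidHom.FixedPointFree φ := by
    intro y hy
    by_contra h1
    have h2 : e * y = y * e := by
      have := congrArg Subtype.val hy
      rwa [hφ, mul_inv_eq_iff_eq_mul] at this
    have := h.comm P.isPGroup' he hreg y.2 (fun e => h1 (Subtype.ext e)) h2 hxP (hx _ y.2)
    exact hx1 (by rw [← hex, this, mul_inv_cancel_right])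
  have h2 : Function.Involutive φ := by
    intro y
    have h3 : e * e * x = x * (e * e) := by
      have h4 : e * x⁻¹ * e⁻¹ = x := by rw [← conj_inv, hex, inv_inv]
      calc e * e * x = e * (e * x * e⁻¹) * e⁻¹ * (e * e) := by group
        _ = _ := by rw [hex, h4]
    have h5 := h.comm P.isPGroup' (mul_mem he he)
      (fun hd => hreg (hd.trans (by rw [← pow_two]; exact orderOf_pow_dvd 2))) hxP hx0 h3 y.2
      (hx _ y.2).symm
    apply Subtype.ext
    rw [hφ, hφ]
    calc e * (e * y * e⁻¹) * e⁻¹ = e * e * y * (e * e)⁻¹ := by group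
      _ = y := by rw [h5, mul_inv_cancel_right]
  exact fun a ha b hb => congrArg Subtype.val (h1.commute_all_of_involutive h2 ⟨a, ha⟩ ⟨b, hb⟩).eq

end Cfsg.Lib.GlSz
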