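import Cfsg.Agent.GlSz.Col
import Cfsg.Agent.GlSz.Loc

/-!
# The local hypotheses are impossible in a simple group for odd `p`
-/

set_option autoImplicit false

open scoped ComplexConjugate ComplexOrder
open Cfsg Subgroup Cfsg.Lib.Char Cfsg.Lib.Block Cfsg.Lib.Block.Princ

namespace Cfsg.Lib.GlSz

variable {G : Type*} [Group G] [Finite G] {p : ℕ} [hp : Fact p.Prime] {M : Ideal AlgInt}

omit hp in
theorem exists_mult {V : Subgroup G} (hV : ∀ a ∈ V, ∀ b ∈ V, a * b = b * a) {x : G} (hx : x ∈ V)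
    (hx1 : x ≠ 1) (hall : ∀ y ∈ V, y ≠ 1 → IsConj x y) {χ : G → ℂ} (hχ : IsCharacter G χ) :
    ∃ m : ℕ, χ 1 - χ x = m * Nat.card V := by
  classical
  have := Fintype.ofFinite V
  obtain ⟨lam, hl, hne⟩ : ∃ lam : V → ℂ, IsIrrCharacter V lam ∧ lam ⟨x, hx⟩ ≠ lam 1 := by
    by_contra hc
    push Not at hc
    exact hx1 (congrArg Subtype.val (isConj_one_left.1 ((isConj_iff_forall_irr _ _).2 hc)))
  have h1 : lam 1 = 1 := hl.apply_one_of_comm fun a b => Subtype.ext (hV a a.2 b b.2)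
  have h2 : ∑ v : V, conj (lam v) = 0 := by
    have := card_mul_classInner (fun _ : V => (1 : ℂ)) lam
    rw [isIrrCharacter_one.classInner_of_ne hl (fun e => hne (by rw [← e])), mul_zero] at this
    simpa using this.symm
  obtain ⟨m, hm⟩ := (hχ.res V).exists_nat_classInner hl.isCharacter
  refine ⟨m, ?_⟩
  have h3 := card_mul_classInner (fun v : V => χ v) lam
  rw [hm, ← Finset.add_sum_erase _ _ (Finset.mem_univ (1 : V)), Finset.sum_congr rfl
    (g := fun v => χ x * conj (lam v)) fun v hv => by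
      rw [← hχ.isClassFunction.eq_of_isConj (hall v v.2 fun e =>
        Finset.ne_of_mem_erase hv (Subtype.ext e))], ← Finset.mul_sum] at h3
  rw [← Finset.add_sum_erase _ _ (Finset.mem_univ (1 : V)), h1] at h2
  rw [h1] at h3
  simp only [map_one, OneMemClass.coe_one] at h2 h3
  linear_combination -h3 - χ x * h2

omit hp in
theorem degree_le_classInner {A : Type*} [Group A] [Fintype A] (hA : ∀ a b : A, a * b = b * a)
    {θ : A → ℂ} (hθ : IsCharacter A θ) : θ 1 ≤ classInner θ θ := by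
  obtain ⟨c, rfl⟩ := hθ.exists_nat_coeff
  have h := classInner_sum_int_coeff (G := A) (fun χ => (c χ : ℤ)) (fun χ => (c χ : ℤ))
  simp only [Int.cast_natCast] at h
  rw [h, Finset.sum_apply]
  push_cast
  refine Finset.sum_le_sum fun χ _ => ?_
  rw [Pi.smul_apply, χ.2.apply_one_of_comm hA, smul_eq_mul, mul_one]
  exact_mod_cast Nat.le_mul_self (c χ)

open Classical in
theorem bessel [Fintype G] (hM : IsPModular p M) {P : Sylow p G} {S : Finset G}
    (hS : ∀ u ∈ S, Cen p P u) {e : ℕ} (he : ∀ u ∈ S, (S.filter fun v => IsConj v u).card ≤ e)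
    {χ : IrrCharacter G} (hχ : χ ∈ principalBlock M G) :
    ∑ u ∈ S, Complex.normSq ((χ : G → ℂ) u) ≤ e * Nat.card P := by
  set s := ∑ u ∈ S, Complex.normSq ((χ : G → ℂ) u) with hs
  let F : IrrCharacter G → ℂ := fun ψ => ∑ u ∈ S, (ψ : G → ℂ) u * conj ((χ : G → ℂ) u)
  have h1 : F χ = s := by
    simp only [F, hs, Complex.mul_conj]; push_cast; rfl
  have h2 : ((∑ ψ ∈ irrFin (principalBlock M G), Complex.normSq (F ψ) : ℝ) : ℂ) =
      ∑ u ∈ S, ∑ v ∈ S, conj ((χ : G → ℂ) u) * (χ : G → ℂ) v *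
        ∑ ψ ∈ irrFin (principalBlock M G), (ψ : G → ℂ) u * conj ((ψ : G → ℂ) v) := by
    push_cast
    simp only [← Complex.mul_conj, F, map_sum, Finset.sum_mul_sum]
    simp only [Finset.mul_sum]
    rw [Finset.sum_comm]
    refine Finset.sum_congr rfl fun u _ => ?_
    rw [Finset.sum_comm]
    refine Finset.sum_congr rfl fun v _ => Finset.sum_congr rfl fun ψ _ => ?_
    simp only [map_mul, Complex.conj_conj]; ring
  have h3 : ∀ u ∈ S, ∑ v ∈ S, conj ((χ : G → ℂ) u) * (χ : G → ℂ) v *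
        ∑ ψ ∈ irrFin (principalBlock M G), (ψ : G → ℂ) u * conj ((ψ : G → ℂ) v) =
      ((Complex.normSq ((χ : G → ℂ) u) * ((S.filter fun v => IsConj v u).card * Nat.card P) : ℝ)
        : ℂ) := by
    intro u hu
    have hpu := isPPart_self hp.out (hS u hu).ord
    rw [Finset.sum_congr rfl (g := fun v => if IsConj v u then
      (Complex.normSq ((χ : G → ℂ) u) : ℂ) * Nat.card P else 0) fun v hv => ?_,
      ← Finset.sum_filter, Finset.sum_const]
    · push_cast; rw [nsmul_eq_mul]; ring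
    · split_ifs with h
      · rw [(hS v hv).sum_of_isConj hM hpu h, χ.2.isClassFunction.eq_of_isConj h,
          Complex.normSq_eq_conj_mul_self]
      · rw [sum_of_not_isConj hM (hS v hv).ord hpu h, mul_zero]
  rw [Finset.sum_congr rfl h3, ← Complex.ofReal_sum, Complex.ofReal_inj] at h2
  have h4 : s * s ≤ ∑ ψ ∈ irrFin (principalBlock M G), Complex.normSq (F ψ) := by
    rw [← Complex.normSq_ofReal, ← h1]
    exact Finset.single_le_sum (f := fun ψ => Complex.normSq (F ψ))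
      (fun _ _ => Complex.normSq_nonneg _) (mem_irrFin.2 hχ)
  have h5 : s * s ≤ s * (e * Nat.card P) := by
    refine h4.trans ?_
    rw [h2, hs, Finset.sum_mul]
    refine Finset.sum_le_sum fun u hu => mul_le_mul_of_nonneg_left
      (mul_le_mul_of_nonneg_right ?_ (Nat.cast_nonneg _)) (Complex.normSq_nonneg _)
    exact_mod_cast he u hu
  rcases (show 0 ≤ s from Finset.sum_nonneg fun _ _ => Complex.normSq_nonneg _).eq_or_lt with h | h
  · rw [← h]; positivity
  · exact le_of_mul_le_mul_left h5 h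

theorem exists_large {ι : Type*} {B : Finset ι} {o : ι} (ho : o ∈ B) {c : ι → ℤ} {d : ι → ℕ}
    (hd : ∀ i, 0 < d i) (hco : c o = 1) (hdo : d o = 1) (h2 : ∑ i ∈ B, c i * d i = 0)
    (h3 : ∑ i ∈ B, (c i : ℝ) ^ 2 ≤ 2 * ∑ i ∈ B, (c i : ℝ) ^ 3 / d i) :
    ∃ i ∈ B, i ≠ o ∧ (d i : ℤ) < 2 * c i := by
  classical
  by_contra hc
  push Not at hc
  obtain ⟨j, hj, hcj⟩ : ∃ j ∈ B, c j < 0 := by
    by_contra h
    push Not at h
    have := Finset.single_le_sum (f := fun i => c i * d i)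
      (fun i hi => mul_nonneg (h i hi) (Nat.cast_nonneg _)) ho
    simp only [hco, hdo, h2] at this
    omega
  have hjo : j ≠ o := fun e => by rw [e, hco] at hcj; omega
  let t : ι → ℝ := fun i => 2 * ((c i : ℝ) ^ 3 / d i) - (c i : ℝ) ^ 2
  have h4 : 0 ≤ ∑ i ∈ B, t i := by
    simp only [t, Finset.sum_sub_distrib, ← Finset.mul_sum]; linarith
  have h5 : ∀ i ∈ B, i ≠ o → t i ≤ 0 := by
    intro i hi hio
    have hdi : (0 : ℝ) < d i := by exact_mod_cast hd i
    have h6 : 2 * (c i : ℝ) ≤ d i := by exact_mod_cast hc i hi hio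
    have : t i = (c i : ℝ) ^ 2 * (2 * c i - d i) / d i := by simp only [t]; field_simp
    rw [this]
    exact div_nonpos_of_nonpos_of_nonneg (mul_nonpos_of_nonneg_of_nonpos (sq_nonneg _)
      (by linarith)) hdi.le
  have h6 : t j < -1 := by
    have hdi : (0 : ℝ) < d j := by exact_mod_cast hd j
    have h7 : (c j : ℝ) ≤ -1 := by exact_mod_cast (show c j ≤ -1 by omega)
    have : (c j : ℝ) ^ 3 / d j < 0 := div_neg_of_neg_of_pos (by nlinarith [sq_nonneg (c j : ℝ)]) hdi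
    simp only [t]; nlinarith
  have h7 : t o = 1 := by simp only [t, hco, hdo]; norm_num
  rw [← Finset.add_sum_erase _ _ ho, ← Finset.add_sum_erase _ _ (Finset.mem_erase.2 ⟨hjo, hj⟩)]
    at h4
  have := Finset.sum_nonpos (s := (B.erase o).erase j) (f := t) fun i hi =>
    h5 i (Finset.mem_of_mem_erase (Finset.mem_of_mem_erase hi))
      (Finset.ne_of_mem_erase (Finset.mem_of_mem_erase hi))
  linarith

namespace Hyp

variable {P : Sylow p G} {V : Subgroup G} (h : Hyp p P V)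
include h

open Classical in
theorem card_filter_le [Fintype G]
    (hab : ∀ a ∈ (P : Subgroup G), ∀ b ∈ (P : Subgroup G), a * b = b * a) {x : G} (hx : x ∈ V)
    (hx1 : x ≠ 1) (hall : ∀ y ∈ V, y ≠ 1 → IsConj x y) {u : G} (hu : u ∈ (P : Subgroup G)) :
    ((nz (P : Subgroup G)).filter fun v => IsConj v u).card ≤ (nz V).card := by
  have hn : ∀ y, ∃ n, y ∈ nz V → n ∈ normalizer ((P : Subgroup G) : Set G) ∧ n * x * n⁻¹ = y := by
    intro y
    by_cases hy : y ∈ nz V
    · obtain ⟨n, h1, h2⟩ := burnside P (h.cent x hx) (h.cent y (mem_nz.1 hy).1)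
        (hall y (mem_nz.1 hy).1 (mem_nz.1 hy).2)
      exact ⟨n, fun _ => ⟨h1, h2⟩⟩
    · exact ⟨1, fun h => absurd h hy⟩
  choose n hn using hn
  refine Finset.card_le_card_of_surjOn (fun y => n y * u * (n y)⁻¹) fun v hv => ?_
  rw [Finset.coe_filter, Set.mem_ofPred_eq, mem_nz] at hv
  obtain ⟨k, hk, rfl⟩ := burnside P (hab u hu) (hab v hv.1.1) hv.2.symm
  have hy : k * x * k⁻¹ ∈ nz V := mem_nz.2 ⟨h.sc x hx _
    ((mem_normalizer_iff.1 hk x).1 (h.le hx)) (isConj_iff.2 ⟨k, rfl⟩), by simpa using hx1⟩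
  obtain ⟨h1, h2⟩ := hn _ hy
  refine ⟨_, hy, ?_⟩
  beta_reduce
  generalize n (k * x * k⁻¹) = m at h1 h2
  obtain ⟨z, hz, e, he, hreg, hze⟩ := exists_reg P (mul_mem (inv_mem h1) hk)
  have h3 : m⁻¹ * k * x = x * (m⁻¹ * k) := by
    calc m⁻¹ * k * x = m⁻¹ * (k * x * k⁻¹) * k := by group
      _ = _ := by rw [← h2]; group
  have h4 : e * x = x * e := by
    obtain ⟨j, rfl⟩ := mem_zpowers_iff.1 he
    exact ((show Commute (m⁻¹ * k) x from h3).zpow_left j).eq
  have h5 := Nil.comm h.nil P.isPGroup' (zpowers_le.2 (mul_mem (inv_mem h1) hk) he) hreg (h.le hx)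
    hx1 h4 hu (h.cent x hx u hu).symm
  have h6 : m⁻¹ * k * u = u * (m⁻¹ * k) := by
    rw [hze, mul_assoc, h5, ← mul_assoc, hab z hz u hu, mul_assoc]
  calc m * u * m⁻¹ = m * (u * (m⁻¹ * k)) * k⁻¹ := by group
    _ = k * u * k⁻¹ := by rw [← h6]; group

theorem cube [Fintype G] (hM : IsPModular p M) {x : G} (hx : x ∈ V) (hx1 : x ≠ 1)
    (hinv : ∀ v ∈ V, v ≠ 1 → v⁻¹ ≠ v) (hall : ∀ y ∈ V, y ≠ 1 → IsConj x y) :
    (Nat.card P : ℂ) ≤ 2 * ∑ χ ∈ irrFin (principalBlock M G),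
      (χ : G → ℂ) x * (χ : G → ℂ) x * conj ((χ : G → ℂ) x) / (χ : G → ℂ) 1 := by
  have hc := h.cen hx hx1
  have e1 : ∀ y, IsConj x y → ∑ g : G, ∑ χ ∈ irrFin (principalBlock M G),
      (χ : G → ℂ) (x * (g * y * g⁻¹)) * conj ((χ : G → ℂ) x) =
      Nat.card G * ∑ χ ∈ irrFin (principalBlock M G),
      (χ : G → ℂ) x * (χ : G → ℂ) x * conj ((χ : G → ℂ) x) / (χ : G → ℂ) 1 := by
    intro y hy
    rw [Finset.sum_comm, Finset.mul_sum]
    refine Finset.sum_congr rfl fun χ _ => ?_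
    rw [← Finset.sum_mul, irr_sum_mul_conj χ.2, ← χ.2.isClassFunction.eq_of_isConj hy]
    ring
  have e2 : ∑ _g : G, (Nat.card P : ℂ) ≤ ∑ g : G, (∑ χ ∈ irrFin (principalBlock M G),
      (χ : G → ℂ) (x * (g * x * g⁻¹)) * conj ((χ : G → ℂ) x) +
      ∑ χ ∈ irrFin (principalBlock M G),
      (χ : G → ℂ) (x * (g * x⁻¹ * g⁻¹)) * conj ((χ : G → ℂ) x)) := by
    refine Finset.sum_le_sum fun g _ => ?_
    obtain ⟨a, ha, b, hb, -, hbu, ⟨z, hz, hz'⟩, ⟨w, hw, hw'⟩⟩ := h.pair hx hx1 hx hx1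
      (IsConj.refl x) (isConj_iff.2 ⟨g, rfl⟩ : IsConj x (g * x * g⁻¹))
    rw [conj_inv] at hw
    by_cases hab : a * b = 1
    · have hb1 : b ≠ 1 := fun e => hx1 (by simpa [e, eq_comm (a := (1 : G))] using hbu)
      have hab' : a * b⁻¹ ≠ 1 := fun e => hinv b hb hb1 (mul_left_cancel (e.trans hab.symm))
      rw [hc.sum_of_isConj hM hw ((hall _ (mul_mem ha (inv_mem hb)) hab').trans hw')]
      exact le_add_of_nonneg_left (hc.sum_nonneg hM _)
    · rw [hc.sum_of_isConj hM hz ((hall _ (mul_mem ha hb) hab).trans hz')]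
      exact le_add_of_nonneg_right (hc.sum_nonneg hM _)
  rw [Finset.sum_add_distrib, e1 x (IsConj.refl x), e1 x⁻¹ (hall _ (inv_mem hx) (inv_ne_one.2 hx1)),
    Finset.sum_const, Finset.card_univ, nsmul_eq_mul, ← Nat.card_eq_fintype_card, ← mul_add,
    ← two_mul] at e2
  exact le_of_mul_le_mul_left e2 (by exact_mod_cast Nat.card_pos)

/-- The prime is two. -/
theorem eq_two [IsSimpleGroup G] (hna : ¬ ∀ a b : G, a * b = b * a) : p = 2 := by
  classical
  by_contra hp2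
  have := Fintype.ofFinite G
  obtain ⟨M, hM⟩ := exists_isPModular hp.out
  obtain ⟨⟨x, hx⟩, hx1⟩ := ne_bot_iff_exists_ne_one.1 h.ne
  replace hx1 : x ≠ 1 := fun e => hx1 (Subtype.ext e)
  have hall : ∀ y ∈ V, y ≠ 1 → IsConj x y := fun y hy h1 => h.isConj hna hp2 hx hx1 hy h1
  have hinv : ∀ v ∈ V, v ≠ 1 → v⁻¹ ≠ v := fun v hv h1 e => by
    have h2 : orderOf v ∣ 2 := orderOf_dvd_of_pow_eq_one (by
      rw [pow_two]; nth_rw 1 [← e]; exact inv_mul_cancel v)
    rw [h.orderOf_eq hv h1] at h2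
    exact hp2 ((Nat.prime_dvd_prime_iff_eq hp.out Nat.prime_two).1 h2)
  have hab := Nil.comm_of_real h.nil P (h.le hx) (h.cent x hx) (hinv x hx hx1)
    (hall _ (inv_mem hx) (inv_ne_one.2 hx1))
  choose m hm using fun χ : IrrCharacter G =>
    exists_mult (fun a ha b hb => h.cent a ha b (h.le hb)) hx hx1 hall χ.2.isCharacter
  let d : IrrCharacter G → ℕ := fun χ => charDegree (χ : G → ℂ)
  let c : IrrCharacter G → ℤ := fun χ => d χ - m χ * Nat.card V
  have hd : ∀ χ : IrrCharacter G, (χ : G → ℂ) 1 = d χ := fun χ =>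
    (Princ.charDegree_cast χ.2.isCharacter).symm
  have hc : ∀ χ : IrrCharacter G, (χ : G → ℂ) x = c χ := fun χ => by
    simp only [c]; push_cast; rw [← hd, ← hm]; ring
  have hcen := h.cen hx hx1
  have h1 : ∑ χ ∈ irrFin (principalBlock M G), (c χ : ℝ) ^ 2 = Nat.card P := by
    have := hcen.sum_of_isConj hM (isPPart_self hp.out hcen.ord) (IsConj.refl x)
    simp only [hc, map_intCast, ← pow_two] at this
    exact_mod_cast this
  have h2 : ∑ χ ∈ irrFin (principalBlock M G), c χ * d χ = 0 := by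
    have := sum_of_not_isConj hM (u := 1) ⟨0, by simp⟩ (isPPart_self hp.out hcen.ord)
      fun e => hx1 (isConj_one_right.1 e)
    simp only [hc, hd, map_natCast] at this
    exact_mod_cast this
  have h3 : (Nat.card P : ℝ) ≤ 2 * ∑ χ ∈ irrFin (principalBlock M G), (c χ : ℝ) ^ 3 / d χ := by
    have := h.cube hM hx hx1 hinv hall
    simp only [hc, hd, map_intCast, ← pow_two, ← pow_succ] at this
    rw [← Complex.real_le_real]
    push_cast
    exact this
  obtain ⟨χ, hχ, hne, hlt⟩ := exists_large (mem_irrFin.2 (triv_mem_principalBlock hM)) (c := c)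
    (d := d) (fun χ => charDegree_pos χ.2)
    (by have := hc (triv G); rw [triv_apply] at this; exact_mod_cast this.symm)
    (by have := hd (triv G); rw [triv_apply] at this; exact_mod_cast this.symm) h2 (h1 ▸ h3)
  have h4 : (c χ : ℝ) ^ 2 ≤ Nat.card P := by
    rw [← h1]
    exact Finset.single_le_sum (f := fun χ => (c χ : ℝ) ^ 2) (fun _ _ => sq_nonneg _) hχ
  have h5 : m χ ≠ 0 := fun e => by
    have h6 := hm χ
    rw [e, Nat.cast_zero, zero_mul, sub_eq_zero] at h6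
    exact (norm_lt hna hne hx1).ne (by rw [h6])
  have h6 := bessel hM (P := P) (S := nz (P : Subgroup G)) (fun u hu => ⟨orderOf_eq_pow_of_mem
    P.isPGroup' (mem_nz.1 hu).1, hab u (mem_nz.1 hu).1, Nil.npc h.nil (orderOf_eq_pow_of_mem
    P.isPGroup' (mem_nz.1 hu).1) (mem_nz.1 hu).2⟩)
    (fun u hu => h.card_filter_le hab hx hx1 hall (mem_nz.1 hu).1) (mem_irrFin.1 hχ)
  have h7 : (Nat.card P : ℝ) * d χ ≤ (d χ : ℝ) ^ 2 +
      ∑ u ∈ nz (P : Subgroup G), Complex.normSq ((χ : G → ℂ) u) := by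
    have e1 := degree_le_classInner (A := (P : Subgroup G))
      (fun a b => Subtype.ext (hab a a.2 b b.2)) (χ.2.isCharacter.res (P : Subgroup G))
    have e2 := card_mul_classInner (fun u : (P : Subgroup G) => (χ : G → ℂ) u)
      (fun u : (P : Subgroup G) => (χ : G → ℂ) u)
    have e3 : ∑ u : (P : Subgroup G), (χ : G → ℂ) u * conj ((χ : G → ℂ) u) =
        (((d χ : ℝ) ^ 2 + ∑ u ∈ nz (P : Subgroup G), Complex.normSq ((χ : G → ℂ) u) : ℝ) : ℂ) := by
      rw [← Finset.sum_subtype (insert 1 (nz (P : Subgroup G))) (p := (· ∈ (P : Subgroup G)))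
        (fun u => by by_cases hu : u = 1 <;> simp [mem_nz, hu])
        (fun u => (χ : G → ℂ) u * conj ((χ : G → ℂ) u)), Finset.sum_insert (by simp [mem_nz]), hd]
      simp only [Complex.mul_conj]
      push_cast
      simp [pow_two]
    have e4 := mul_le_mul_of_nonneg_left e1 (Nat.cast_nonneg (Nat.card (P : Subgroup G)))
    rw [e2, e3, OneMemClass.coe_one, hd] at e4
    exact_mod_cast e4
  have h8 := card_nz V
  have h9 : 0 < (nz V).card := Finset.card_pos.2 ⟨x, mem_nz.2 ⟨hx, hx1⟩⟩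
  have h10 : c χ + Nat.card V ≤ d χ := by
    have : (Nat.card V : ℤ) ≤ m χ * Nat.card V :=
      le_mul_of_one_le_left (Nat.cast_nonneg _) (by exact_mod_cast Nat.pos_of_ne_zero h5)
    simp only [c]; linarith
  have h11 : ((nz V).card : ℝ) + 4 ≤ d χ := by
    exact_mod_cast (show (nz V).card + 4 ≤ d χ by omega)
  have h12 : (d χ : ℝ) < 2 * c χ := by exact_mod_cast hlt
  have h13 : (0 : ℝ) < Nat.card P := by exact_mod_cast Nat.card_pos
  have h14 : (0 : ℝ) ≤ d χ := Nat.cast_nonneg _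
  nlinarith

end Hyp

end Cfsg.Lib.GlSz
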