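import Cfsg.Agent.GlSz.Odd
import Cfsg.Agent.S0721
import Cfsg.Agent.Local.StronglyEmb
import Cfsg.Agent.Solv.PGroupNormal

/-!
# Reduction to a simple normal subgroup
-/

set_option autoImplicit false

open Cfsg Subgroup Cfsg.Lib.Block Cfsg.Lib.Block.Princ

namespace Cfsg.Lib.GlSz

variable {G : Type*} [Group G] [Finite G] {p : ℕ} [hp : Fact p.Prime]

/-- The elements of order dividing `p` in the centre of `P`. -/
def zc (p : ℕ) (P : Subgroup G) : Subgroup G where
  carrier := {z | z ∈ P ∧ (∀ y ∈ P, z * y = y * z) ∧ z ^ p = 1}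
  one_mem' := ⟨one_mem _, by simp, one_pow _⟩
  mul_mem' := by
    rintro a b ⟨ha, ha1, ha2⟩ ⟨hb, hb1, hb2⟩
    refine ⟨mul_mem ha hb, fun y hy => by rw [mul_assoc, hb1 y hy, ← mul_assoc, ha1 y hy, mul_assoc],
      ?_⟩
    rw [(show Commute a b from ha1 b hb).mul_pow, ha2, hb2, one_mul]
  inv_mem' := by
    rintro a ⟨ha, ha1, ha2⟩
    exact ⟨inv_mem ha, fun y hy => ((show Commute a y from ha1 y hy).inv_left).eq,
      by rw [inv_pow, ha2, inv_one]⟩

omit [Finite G] hp in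
theorem mem_zc {P : Subgroup G} {z : G} :
    z ∈ zc p P ↔ z ∈ P ∧ (∀ y ∈ P, z * y = y * z) ∧ z ^ p = 1 := Iff.rfl

omit [Finite G] hp in
theorem zc_sc {P : Subgroup G}
    (ha : ∀ x ∈ P, ∀ y ∈ P, (∃ g : G, g * x * g⁻¹ = y) →
      ∃ n ∈ normalizer (P : Set G), n * x * n⁻¹ = y)
    {v t : G} (hv : v ∈ zc p P) (ht : t ∈ P) (hc : IsConj v t) : t ∈ zc p P := by
  obtain ⟨n, hn, rfl⟩ := ha v hv.1 t ht (isConj_iff.1 hc)
  refine ⟨ht, fun y hy => ?_, by rw [conj_pow, hv.2.2, mul_one, mul_inv_cancel]⟩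
  have := hv.2.1 _ ((mem_normalizer_iff''.1 hn y).1 hy)
  calc n * v * n⁻¹ * y = n * (v * (n⁻¹ * y * n)) * n⁻¹ := by group
    _ = _ := by rw [this]; group

theorem exists_mem_zc {P L : Subgroup G} [L.Normal] (hP : IsPGroup p P) (h : P ⊓ L ≠ ⊥) :
    ∃ z ∈ zc p P, z ∈ L ∧ orderOf z = p := by
  have h1 := Solv.PG.inf_centralizer_ne_bot hP (hP.to_le inf_le_left : IsPGroup p ↥(P ⊓ L))
    (fun g hg => mem_normalizer_fintype fun x hx =>
      mem_inf.2 ⟨mul_mem (mul_mem hg hx.1) (inv_mem hg), Normal.conj_mem inferInstance _ hx.2 _⟩) h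
  obtain ⟨z, hz, ho⟩ := Local.exists_orderOf_eq_of_isPGroup
    (hP.to_le (inf_le_left.trans inf_le_left)) h1
  exact ⟨z, ⟨hz.1.1, fun y hy => (hz.2 y hy).symm, ho ▸ pow_orderOf_eq_one z⟩, hz.1.2, ho⟩

theorem Npc.isPGroup (h : Npc p G) (hO : pPrimeCore p G = ⊥) : IsPGroup p G := by
  obtain ⟨k, hk⟩ := h
  rw [hO, index_bot] at hk
  exact IsPGroup.of_card hk

theorem Npc.of_surjective {K : Type*} [Group K] (h : Npc p G) (f : G →* K)
    (hf : Function.Surjective f) : Npc p K := by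
  have := Finite.of_surjective f hf
  obtain ⟨k, hk⟩ := h
  have h1 : (pPrimeCore p G).map f ≤ pPrimeCore p K :=
    Solv.le_pPrimeCore (Normal.map inferInstance f hf)
      ((Solv.coprime_card_pPrimeCore p G).coprime_dvd_left (card_map_dvd _ f))
  obtain ⟨j, -, hj⟩ := (Nat.dvd_prime_pow hp.out).1
    ((index_dvd_of_le h1).trans (hk ▸ index_map_dvd _ hf))
  exact ⟨j, hj⟩

theorem Nil.subgroup (h : Nil p G) (L : Subgroup G) : Nil p L := fun x hx =>
  (h x (by rw [orderOf_coe, hx])).of_injective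
    ((L.subtype.comp (centralizer {x}).subtype).codRestrict _ fun g =>
      mem_centralizer_singleton_iff.2 (congrArg Subtype.val (mem_centralizer_singleton_iff.1 g.2)))
    fun _ _ e => Subtype.ext (Subtype.ext (congrArg (fun z => (z.1 : G)) e))

theorem nil_of_sylow (P : Sylow p G) (hb : ∀ x ∈ (P : Subgroup G), orderOf x = p →
    HasNormalPComplement p (centralizer ({x} : Set G))) : Nil p G := by
  intro x hx
  obtain ⟨g, hg⟩ := exists_conj_mem_sylow P (z := x) ⟨1, by rw [hx, pow_one]⟩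
  refine (npc_of_hasNormalPComplement (hb _ hg (by rw [Local.orderOf_conj, hx]))).of_injective
    (((MulAut.conj g).toMonoidHom.comp (centralizer {x}).subtype).codRestrict _ fun c => ?_)
    fun _ _ e => Subtype.ext ((MulAut.conj g).injective (congrArg Subtype.val e))
  refine mem_centralizer_singleton_iff.2 ?_
  change g * c * g⁻¹ * (g * x * g⁻¹) = g * x * g⁻¹ * (g * c * g⁻¹)
  rw [conj_mul, conj_mul, mem_centralizer_singleton_iff.1 c.2]

theorem not_isPGroup (hcore : pPrimeCore p G = ⊥) (P : Sylow p G) (hnn : ¬ (P : Subgroup G).Normal)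
    (hsc : ∀ v ∈ zc p (P : Subgroup G), ∀ t ∈ (P : Subgroup G), IsConj v t →
      t ∈ zc p (P : Subgroup G))
    (hnil : Nil p G) {L : Subgroup G} [L.Normal] (hL : L ≠ ⊥) : ¬ IsPGroup p L := by
  intro hpL
  have hLP : L ≤ (P : Subgroup G) := hpL.le_sylow_of_normal P
  obtain ⟨z, hz, hzL, ho⟩ := exists_mem_zc (L := L) P.isPGroup' (by rwa [inf_eq_right.2 hLP])
  have h1 : normalClosure ((P : Subgroup G) : Set G) ≤ centralizer {z} := by
    refine (closure_le _).2 fun y hy => ?_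
    obtain ⟨a, ha, hc⟩ := Group.mem_conjugatesOfSet_iff.1 hy
    obtain ⟨g, rfl⟩ := isConj_iff.1 hc
    have := (hsc z hz _ (hLP (Normal.conj_mem inferInstance _ hzL g⁻¹))
      (isConj_iff.2 ⟨g⁻¹, rfl⟩)).2.1 a ha
    refine mem_centralizer_singleton_iff.2 ?_
    calc g * a * g⁻¹ * z = g * (a * (g⁻¹ * z * g⁻¹⁻¹)) * g⁻¹ := by group
      _ = _ := by rw [← this]; group
  have h2 := ((hnil z ho).of_le h1).isPGroup
    (Solv.pPrimeCore_eq_bot_of_isSubnormal (Normal.isSubnormal inferInstance) hcore)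
  exact hnn (P.is_maximal' h2 le_normalClosure ▸ inferInstance)

theorem exists_sylow_subgroupOf (K : Subgroup G) [K.Normal] (P : Sylow p G) :
    ∃ P' : Sylow p K, (P' : Subgroup K) = (P : Subgroup G).subgroupOf K := by
  obtain ⟨Q, hQ⟩ := (P.isPGroup'.comap_subtype (K := K)).exists_le_sylow
  obtain ⟨R, hR⟩ := (Q.isPGroup'.map K.subtype).exists_le_sylow
  obtain ⟨g, rfl⟩ := MulAction.exists_smul_eq G P R
  refine ⟨Q, (eq_of_le_of_card_ge hQ ?_).symm⟩
  refine Nat.card_le_card_of_injective (fun q => ⟨⟨g⁻¹ * q.1.1 * g, by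
    simpa using Normal.conj_mem inferInstance _ q.1.2 g⁻¹⟩,
      Local.mem_conj_smul.1 (hR ⟨q.1, q.2, rfl⟩)⟩) fun a b e => ?_
  have : g⁻¹ * a.1.1 * g = g⁻¹ * b.1.1 * g := congrArg (fun x => x.1.1) e
  exact Subtype.ext (Subtype.ext (by simpa using this))

theorem isSimpleGroup_of_min (hcore : pPrimeCore p G = ⊥) (hnil : Nil p G) {L : Subgroup G}
    [L.Normal] (hL : L ≠ ⊥) (hmin : ∀ M : Subgroup G, M.Normal → M ≤ L → M = ⊥ ∨ M = L)
    (hp' : ¬ IsPGroup p L) : IsSimpleGroup L := by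
  obtain ⟨T, _, m, hT, hm, ⟨e⟩⟩ := Agent.S0721.result L hL hmin
  have hcard : Nat.card L = Nat.card T ^ m := by
    rw [Nat.card_congr e.toEquiv, Nat.card_fun, Nat.card_eq_fintype_card (α := Fin m), Fintype.card_fin]
  obtain ⟨m, rfl⟩ : ∃ k, m = k + 1 := ⟨m - 1, by omega⟩
  rcases m with _ | m
  · exact (e.trans (MulEquiv.funUnique (Fin 1) T)).isSimpleGroup
  exfalso
  have hfin : Finite T := Nat.finite_of_card_ne_zero fun h => by
    rw [h, zero_pow (by omega)] at hcard; exact Nat.card_pos.ne' hcard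
  have hd : p ∣ Nat.card T := by
    by_contra hc
    exact hL (le_bot_iff.1 (hcore ▸ Solv.le_pPrimeCore inferInstance
      (hcard ▸ ((hp.out.coprime_iff_not_dvd.2 hc).symm.pow_left _))))
  obtain ⟨t, ht⟩ := exists_prime_orderOf_dvd_card' p hd
  let f : Fin (m + 2) → T →* L := fun i =>
    e.symm.toMonoidHom.comp (MonoidHom.mulSingle (fun _ => T) i)
  have hf : ∀ i, Function.Injective (f i) := fun i =>
    e.symm.injective.comp (Pi.mulSingle_injective (M := fun _ => T) i)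
  have h1 : Npc p T := (hnil.subgroup L (f 0 t) (by rw [orderOf_injective _ (hf 0), ht])).of_injective
    ((f 1).codRestrict _ fun s => mem_centralizer_singleton_iff.2
      ((Pi.mulSingle_commute (f := fun _ => T) (by simp : (1 : Fin (m + 2)) ≠ 0) s t).map
        e.symm.toMonoidHom).eq) fun a b h => hf 1 (congrArg Subtype.val h)
  have h2 : pPrimeCore p T = ⊥ := (Normal.eq_bot_or_eq_top inferInstance).resolve_right fun h =>
    Solv.not_dvd_card_pPrimeCore p T (by rwa [h, card_top])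
  obtain ⟨k, hk⟩ := IsPGroup.iff_card.1 (h1.isPGroup h2)
  exact hp' (IsPGroup.of_card (by rw [hcard, hk, ← pow_mul]))

theorem reduction (hcore : pPrimeCore p G = ⊥) (P : Sylow p G) (hnn : ¬ (P : Subgroup G).Normal)
    (hsc : ∀ v ∈ zc p (P : Subgroup G), ∀ t ∈ (P : Subgroup G), IsConj v t →
      t ∈ zc p (P : Subgroup G))
    (hnil : Nil p G)
    (hc : ∀ x y : G, orderOf x = p → orderOf y = p → IsPSolvable p (closure ({x, y} : Set G))) :
    ∃ L : Subgroup G, L.Normal ∧ IsSimpleGroup L ∧ (¬ ∀ a b : L, a * b = b * a) ∧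
      ∃ Q : Sylow p L, (Q : Subgroup L) = (P : Subgroup G).subgroupOf L ∧
        Hyp p Q ((zc p (P : Subgroup G)).subgroupOf L) := by
  have hG : (⊤ : Subgroup G) ≠ ⊥ := fun h => hnn (by
    rw [show (P : Subgroup G) = ⊥ from le_bot_iff.1 (h ▸ le_top)]; infer_instance)
  obtain ⟨L, hLn, hL, -, hmin⟩ := Solv.exists_minimal_normal_le (⊤ : Subgroup G) hG
  have hp' := not_isPGroup hcore P hnn hsc hnil hL
  have hs := isSimpleGroup_of_min hcore hnil hL hmin hp'
  have hd : p ∣ Nat.card L := by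
    by_contra hc
    exact hL (le_bot_iff.1 (hcore ▸ Solv.le_pPrimeCore inferInstance
      (hp.out.coprime_iff_not_dvd.2 hc).symm))
  obtain ⟨Q, hQ⟩ := exists_sylow_subgroupOf L P
  refine ⟨L, hLn, hs, fun hcomm => hp' ?_, Q, hQ, ?_, ?_, ?_, ?_, ?_, hnil.subgroup L, ?_⟩
  · have h1 : (Q : Subgroup L).Normal := ⟨fun x hx g => by rwa [hcomm g, mul_inv_cancel_right]⟩
    have h2 := h1.eq_bot_or_eq_top.resolve_left (Q.ne_bot_of_dvd_card hd)
    exact (h2 ▸ Q.isPGroup' : IsPGroup p (⊤ : Subgroup L)).of_equiv topEquiv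
  · exact fun v hv => hQ ▸ hv.1
  · obtain ⟨z, hz, hzL, ho⟩ := exists_mem_zc (L := L) P.isPGroup' fun h =>
      Q.ne_bot_of_dvd_card hd (by
        rw [hQ, eq_bot_iff]
        exact fun x hx => Subtype.ext (mem_bot.1 (h ▸ mem_inf.2 ⟨hx, x.2⟩)))
    refine ne_bot_iff_exists_ne_one.2 ⟨⟨⟨z, hzL⟩, hz⟩, fun e => hp.out.ne_one ?_⟩
    rw [← ho, show z = 1 from congrArg (fun x => x.1.1) e, orderOf_one]
  · exact fun v hv y hy => Subtype.ext (hv.2.1 y (by rwa [hQ] at hy))
  · exact fun v hv => Subtype.ext hv.2.2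
  · exact fun v hv t ht h => hsc v hv t (by rwa [hQ] at ht) (L.subtype.map_isConj h)
  · intro x y hx hy
    refine (hc x y (by rw [orderOf_coe, hx]) (by rw [orderOf_coe, hy])).of_injective
      ((L.subtype.comp (closure {x, y}).subtype).codRestrict _ fun g => ?_)
      fun _ _ e => Subtype.ext (Subtype.ext (congrArg (fun z => (z.1 : G)) e))
    have : (closure ({x, y} : Set L)).map L.subtype = closure {(x : G), (y : G)} := by
      rw [MonoidHom.map_closure, Set.image_pair]; rfl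
    exact this ▸ ⟨g.1, g.2, rfl⟩

/-- If two elements of `Ω₁ Z(P)` are fused in the normal subgroup `L` then `P ≤ L`. -/
theorem le_of_fused (P : Sylow p G)
    (hsc : ∀ v ∈ zc p (P : Subgroup G), ∀ t ∈ (P : Subgroup G), IsConj v t →
      t ∈ zc p (P : Subgroup G))
    (hnil : Nil p G) {L : Subgroup G} [L.Normal] {t n : G} (ht : t ∈ zc p (P : Subgroup G))
    (htL : t ∈ L) (hn : n ∈ L) (hne : n * t * n⁻¹ ≠ t)
    (hnP : ∀ y ∈ (P : Subgroup G), y ∈ L → n * y * n⁻¹ ∈ (P : Subgroup G)) :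
    (P : Subgroup G) ≤ L := by
  let V := zc p (P : Subgroup G) ⊓ L
  let C := centralizer (V : Set G)
  have ht1 : t ≠ 1 := fun e => hne (by simp [e])
  have hnV : n ∈ normalizer (V : Set G) := mem_normalizer_fintype fun v hv =>
    ⟨hsc v hv.1 _ (hnP v hv.1.1 hv.2) (isConj_iff.2 ⟨n, rfl⟩), Normal.conj_mem inferInstance _ hv.2 _⟩
  have hPC : (P : Subgroup G) ≤ C := fun y hy v hv => hv.1.2.1 y hy
  have hC : Npc p C := (hnil t (orderOf_eq_prime ht.2.2 ht1)).of_le
    (centralizer_le (Set.singleton_subset_iff.2 ⟨ht, htL⟩))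
  obtain ⟨c, hc, hcP⟩ := Local.exists_conj_le_sylow P hPC
    (Q := (P : Subgroup G).map (MulAut.conj n).toMonoidHom) (by
      rintro _ ⟨y, hy, rfl⟩ v hv
      have := hPC hy _ ((mem_normalizer_iff''.1 hnV v).1 hv)
      change v * (n * y * n⁻¹) = n * y * n⁻¹ * v
      calc v * (n * y * n⁻¹) = n * (n⁻¹ * v * n * y) * n⁻¹ := by group
        _ = _ := by rw [this]; group) (P.isPGroup'.map _)
  have hh : c * n ∈ normalizer ((P : Subgroup G) : Set G) := mem_normalizer_fintype fun y hy => by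
    have := hcP _ ⟨y, hy, rfl⟩
    rwa [show c * n * y * (c * n)⁻¹ = c * (n * y * n⁻¹) * c⁻¹ by group]
  obtain ⟨z, hz, e, he, hreg, hze⟩ := exists_reg P hh
  have heN := zpowers_le.2 hh he
  have het : e * t ≠ t * e := fun h => hne (by
    have h1 := hc _ ((mem_normalizer_iff.1 hnV t).1 ⟨ht, htL⟩)
    calc n * t * n⁻¹ = c * (n * t * n⁻¹) * c⁻¹ := by rw [← h1, mul_inv_cancel_right]
      _ = c * n * t * (c * n)⁻¹ := by group
      _ = z * (e * t * e⁻¹) * z⁻¹ := by rw [hze]; group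
      _ = t := by rw [h, mul_inv_cancel_right, ← ht.2.1 z hz, mul_inv_cancel_right])
  let f := QuotientGroup.mk' L
  have hfe : f e ∈ C.map f := by
    have : zpowers (c * n) ≤ (C.map f).comap f := zpowers_le.2 ⟨c, hc, by
      rw [map_mul, show f n = 1 from (QuotientGroup.eq_one_iff n).2 hn, mul_one]⟩
    exact this he
  have hcomm : ∀ y ∈ (P : Subgroup G), e * y * e⁻¹ * y⁻¹ ∈ L := fun y hy => by
    have := (hC.of_surjective _ (f.subgroupMap_surjective C)).comm hfe ⟨y, hPC hy, rfl⟩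
      (fun h => hreg (h.trans (orderOf_map_dvd f e))) (P.isPGroup'.map f)
      ⟨_, comm_mem_of_normalizer heN hy, by simp⟩
    refine (QuotientGroup.eq_one_iff _).1 (show f _ = 1 from ?_)
    rw [map_mul, map_mul, map_mul, map_inv, map_inv, this]
    group
  refine inf_eq_left.1 (eq_of_le_of_card_ge inf_le_left ?_)
  refine Nat.card_le_card_of_injective (fun y => ⟨_, comm_mem_of_normalizer heN y.2, hcomm y y.2⟩)
    fun a b h => ?_
  have h1 : e * a * e⁻¹ * (a : G)⁻¹ = e * b * e⁻¹ * (b : G)⁻¹ := congrArg Subtype.val h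
  by_contra hab
  refine het (hnil.comm P.isPGroup' heN hreg (mul_mem (inv_mem b.2) a.2)
    (fun h2 => hab (Subtype.ext (inv_mul_eq_one.1 h2).symm)) ?_ ht.1
    (ht.2.1 _ (mul_mem (inv_mem b.2) a.2)))
  calc e * ((b : G)⁻¹ * a) = e * (b : G)⁻¹ * e⁻¹ * (e * a * e⁻¹ * (a : G)⁻¹) * a * e := by group
    _ = _ := by rw [h1]; group

end Cfsg.Lib.GlSz
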